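import Cfsg.Agent.H417.QSTools
import Cfsg.Agent.H417.CommPQ
import Cfsg.Agent.S0813
import Cfsg.Agent.S0815
import Cfsg.Agent.ClassicalGeometry.PSL2Basic
import Cfsg.Agent.FastGrp
import Cfsg.Agent.Prune
set_option linter.all false
open scoped Cfsg.Agent.FastGrp

-- part: H417/Engine
section
/-!
# The trichotomy with the table of the simple groups (helper417)
-/

set_option autoImplicit false

namespace Cfsg.Agent.H417.Engine

open Subgroup Cfsg Cfsg.Agent.OrdDiv
open Cfsg.Agent.H424.DegTools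
open Cfsg.Agent.H417.DegQuasi Cfsg.Agent.H417.Tricho
open Cfsg.Agent.H961.PrimeSection Cfsg.Agent.H961.Recog

universe u

/-- every candidate occurs once -/
def once (l : List (ℕ × ℕ)) (n : ℕ) : Bool := (cands l n).all fun g => n % (ordN g) ^ 2 != 0

/-- no prime power `r ^ j ≡ 1` modulo `p` dividing `o` -/
def noPow (l : List (ℕ × ℕ)) (p o : ℕ) : Bool :=
  l.all fun x => x.1 == p || (List.range x.2).all fun i => x.1 ^ (i + 1) % p != 1 || o % x.1 ^ (i + 1) != 0

/-- the candidates which can occur -/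
def bad (l : List (ℕ × ℕ)) (n p : ℕ) : List Grp :=
  (cands l n).filter fun g => !(ordN g % p != 0 && noPow l p (ordN g))

/-- only powers of `2` are congruent to one modulo `p` -/
def onlyTwo (l : List (ℕ × ℕ)) (p : ℕ) : Bool :=
  l.all fun x => x.1 == 2 || x.1 == p || (List.range x.2).all fun i => x.1 ^ (i + 1) % p != 1

/-- not even powers of `2` -/
def nonePow (l : List (ℕ × ℕ)) (p : ℕ) : Bool :=
  l.all fun x => x.1 == p || (List.range x.2).all fun i => x.1 ^ (i + 1) % p != 1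

theorem noPow_of {l : List (ℕ × ℕ)} {n p o : ℕ} (hv : valid l n = true) (h : noPow l p o = true) {r j : ℕ}
    (hr : r.Prime) (hrp : r ≠ p) (hj : 1 ≤ j) (hn : r ^ j ∣ n) (ho : r ^ j ∣ o) : r ^ j % p ≠ 1 := by
  intro h1
  obtain ⟨k, hk, hjk⟩ := exists_pair hv hr hj hn
  have h2 := (List.all_eq_true.1 h) _ hk
  rw [Bool.or_eq_true] at h2
  rcases h2 with h2 | h2
  · exact hrp (by simpa using h2)
  · have h3 := (List.all_eq_true.1 h2) (j - 1) (List.mem_range.2 (by simp only; omega))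
    simp only [Nat.sub_add_cancel hj, Bool.or_eq_true, bne_iff_ne, ne_eq] at h3
    rcases h3 with h3 | h3
    · exact h3 h1
    · exact h3 (Nat.mod_eq_zero_of_dvd ho)

theorem onlyTwo_of {l : List (ℕ × ℕ)} {n p : ℕ} (hv : valid l n = true) (h : onlyTwo l p = true) {r j : ℕ}
    (hr : r.Prime) (hrp : r ≠ p) (hj : 1 ≤ j) (hn : r ^ j ∣ n) (h1 : r ^ j % p = 1) : r = 2 := by
  by_contra h20
  obtain ⟨k, hk, hjk⟩ := exists_pair hv hr hj hn
  have h2 := (List.all_eq_true.1 h) _ hk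
  rw [Bool.or_eq_true, Bool.or_eq_true] at h2
  rcases h2 with (h2 | h2) | h2
  · exact h20 (by simpa using h2)
  · exact hrp (by simpa using h2)
  · have h3 := (List.all_eq_true.1 h2) (j - 1) (List.mem_range.2 (by simp only; omega))
    simp only [Nat.sub_add_cancel hj, bne_iff_ne, ne_eq] at h3
    exact h3 h1

theorem nonePow_of {l : List (ℕ × ℕ)} {n p : ℕ} (hv : valid l n = true) (h : nonePow l p = true) {r j : ℕ}
    (hr : r.Prime) (hrp : r ≠ p) (hj : 1 ≤ j) (hn : r ^ j ∣ n) : r ^ j % p ≠ 1 := by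
  intro h1
  obtain ⟨k, hk, hjk⟩ := exists_pair hv hr hj hn
  have h2 := (List.all_eq_true.1 h) _ hk
  rw [Bool.or_eq_true] at h2
  rcases h2 with h2 | h2
  · exact hrp (by simpa using h2)
  · have h3 := (List.all_eq_true.1 h2) (j - 1) (List.mem_range.2 (by simp only; omega))
    simp only [Nat.sub_add_cancel hj, bne_iff_ne, ne_eq] at h3
    exact h3 h1

variable {G : Type u} [Group G]

/-- **The engine.** -/
theorem engine [Finite G] (T : OrderTable.{u}) (hK : ∀ (K : Type u) [Group K] [Finite K] [IsSimpleGroup K],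
    IsKnownSimple' K) {p n : ℕ} [hp : Fact p.Prime] {l : List (ℕ × ℕ)} (hv : valid l n = true)
    (ho : once l n = true) (hd : Nat.card G ∣ n) (P : Sylow p G) (hP : Nat.card P = p)
    (hn : ¬ (P : Subgroup G).Normal) :
    ∃ X : Subgroup G, X.Normal ∧ ¬ X ≤ centralizer ((P : Subgroup G) : Set G) ∧
      ((∃ r, r.Prime ∧ r ≠ p ∧ IsPGroup r X ∧ ∃ j, 1 ≤ j ∧ r ^ j ∣ Nat.card G ∧ r ^ j % p = 1) ∨
      (commutator X = ⊤ ∧ IsSimpleGroup (X ⧸ center X) ∧ (¬ ∀ a b : X ⧸ center X, a * b = b * a) ∧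
        ∃ g ∈ bad l n p, Real g (X ⧸ center X) ∧ Nat.card (X ⧸ center X) = ordN g ∧
          (QS G p X ∨ ¬ p ∣ Nat.card X))) := by
  obtain ⟨X, hX, hXc, h⟩ := tricho P hP hn
  refine ⟨X, hX, hXc, ?_⟩
  rcases h with ⟨r, hr, hrp, hXr, j, hj, hjd, hj1⟩ | ⟨hper, T', _, _, m, hs, hna, hm, ⟨e⟩, h⟩
  · exact Or.inl ⟨r, hr, hrp, hXr, j, hj, hjd.trans (card_subgroup_dvd_card X), hj1⟩
  · right
    have hcard : Nat.card (X ⧸ center X) = Nat.card T' ^ m := by
      rw [Nat.card_congr e.toEquiv, Nat.card_fun, Nat.card_fin]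
    have hXn : Nat.card (X ⧸ center X) ∣ n :=
      (card_quotient_dvd_card _).trans ((card_subgroup_dvd_card X).trans hd)
    have hTn : Nat.card T' ∣ n := by
      refine dvd_trans ?_ hXn
      rw [hcard]
      exact dvd_pow_self _ (by omega)
    obtain ⟨g, hg, hr, hgo⟩ := exists_good T (hK T') hna hv hTn
    have hm1 : m = 1 := by
      by_contra hne
      have h1 := (List.all_eq_true.1 ho) g hg
      rw [bne_iff_ne] at h1
      apply h1
      apply Nat.mod_eq_zero_of_dvd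
      rw [← hgo]
      refine dvd_trans ?_ hXn
      rw [hcard]
      exact pow_dvd_pow _ (by omega)
    subst hm1
    have e3 : X ⧸ center X ≃* T' := e.trans (MulEquiv.piUnique (fun _ : Fin 1 => (T' : Type u)))
    have hsim : IsSimpleGroup (X ⧸ center X) := by
      have : Nontrivial (X ⧸ center X) := e3.toEquiv.nontrivial
      exact IsSimpleGroup.isSimpleGroup_of_surjective e3.symm.toMonoidHom e3.symm.surjective
    have hXna : ¬ ∀ a b : X ⧸ center X, a * b = b * a := by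
      intro h1
      apply hna
      intro a b
      apply e3.symm.injective
      rw [map_mul, map_mul]
      exact h1 _ _
    rw [pow_one] at hcard
    obtain ⟨g, hg, hr, hgo⟩ := exists_good T (hK (X ⧸ center X)) hXna hv hXn
    refine ⟨hper, hsim, hXna, g, ?_, hr, hgo, ?_⟩
    · rw [bad, List.mem_filter]
      refine ⟨hg, ?_⟩
      rw [Bool.not_eq_true', ← Bool.not_eq_true]
      intro h1
      rw [Bool.and_eq_true, bne_iff_ne] at h1
      rcases h with ⟨h, -⟩ | ⟨-, r, j, hr, hrp, hj, hjd, hj1⟩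
      · apply h1.1
        apply Nat.mod_eq_zero_of_dvd
        rw [← hgo]
        exact h.dvd
      · rw [pow_one, ← hcard, hgo] at hjd
        exact noPow_of hv h1.2 hr hrp hj (hjd.trans (hgo ▸ hXn)) hjd hj1
    · rcases h with ⟨h, -⟩ | ⟨h, -⟩
      · exact Or.inl h
      · exact Or.inr h

/-- the engine with powers of two only -/
theorem engine_two [Finite G] (T : OrderTable.{u}) (hK : ∀ (K : Type u) [Group K] [Finite K] [IsSimpleGroup K],
    IsKnownSimple' K) {p n : ℕ} [hp : Fact p.Prime] {l : List (ℕ × ℕ)} (hv : valid l n = true)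
    (ho : once l n = true) (h2 : onlyTwo l p = true) (hd : Nat.card G ∣ n) (P : Sylow p G) (hP : Nat.card P = p)
    (hn : ¬ (P : Subgroup G).Normal) :
    ∃ X : Subgroup G, X.Normal ∧ ¬ X ≤ centralizer ((P : Subgroup G) : Set G) ∧
      (IsPGroup 2 X ∨
      (commutator X = ⊤ ∧ IsSimpleGroup (X ⧸ center X) ∧ (¬ ∀ a b : X ⧸ center X, a * b = b * a) ∧
        ∃ g ∈ bad l n p, Real g (X ⧸ center X) ∧ Nat.card (X ⧸ center X) = ordN g ∧
          (QS G p X ∨ ¬ p ∣ Nat.card X))) := by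
  obtain ⟨X, hX, hXc, h⟩ := engine T hK hv ho hd P hP hn
  refine ⟨X, hX, hXc, ?_⟩
  rcases h with ⟨r, hr, hrp, hXr, j, hj, hjd, hj1⟩ | h
  · left
    rwa [← onlyTwo_of hv h2 hr hrp hj (hjd.trans hd) hj1]
  · exact Or.inr h

/-- normality from the engine -/
theorem normal_of [Finite G] (T : OrderTable.{u}) (hK : ∀ (K : Type u) [Group K] [Finite K] [IsSimpleGroup K],
    IsKnownSimple' K) {p n : ℕ} [hp : Fact p.Prime] {l : List (ℕ × ℕ)} (hv : valid l n = true)
    (ho : once l n = true) (h2 : nonePow l p = true) (hb : bad l n p = []) (hd : Nat.card G ∣ n) (P : Sylow p G)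
    (hP : Nat.card P = p) : (P : Subgroup G).Normal := by
  by_contra hn
  obtain ⟨X, hX, hXc, h⟩ := engine T hK hv ho hd P hP hn
  rcases h with ⟨r, hr, hrp, hXr, j, hj, hjd, hj1⟩ | ⟨-, -, -, g, hg, -⟩
  · exact nonePow_of hv h2 hr hrp hj (hjd.trans hd) hj1
  · rw [hb] at hg
    exact List.not_mem_nil hg

/-- a Sylow subgroup of order `p` is not normal if `p` divides a degree -/
theorem not_normal [Finite G] {p : ℕ} [hp : Fact p.Prime] {d : ℕ} (hd : d ∈ charDegrees G) (hpd : p ∣ d)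
    (P : Sylow p G) (hP : Nat.card P = p) : ¬ (P : Subgroup G).Normal := by
  intro hn
  have hc : IsCyclic (P : Subgroup G) := isCyclic_of_prime_card hP
  have h3 := ito hd (P : Subgroup G) (fun a ha b hb =>
    congrArg Subtype.val ((IsCyclic.isMulCommutative (α := (P : Subgroup G))).is_comm.comm ⟨a, ha⟩ ⟨b, hb⟩))
  exact P.not_dvd_index (hpd.trans h3)

end Cfsg.Agent.H417.Engine
end

-- part: H417/TwoNum
section
/-!
# Two commuting elements of prime orders acting nontrivially on an `r`-group (helper417)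
-/

set_option autoImplicit false

namespace Cfsg.Agent.H417.TwoNum

open Subgroup
open Cfsg.Agent.H417.Tricho

universe u

variable {C : Type u} [Group C]

theorem isPGroup_zpowers {x : C} {p : ℕ} (hx : orderOf x = p) : IsPGroup p (zpowers x) := by
  intro g
  obtain ⟨k, hk⟩ := g.2
  refine ⟨1, Subtype.ext ?_⟩
  have hk' : x ^ k = (g : C) := hk
  rw [pow_one]
  show ((g : C)) ^ p = 1
  rw [← hk', ← zpow_natCast, ← zpow_mul, mul_comm, zpow_mul, zpow_natCast, ← hx, pow_orderOf_eq_one, one_zpow]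

/-- the exponents -/
theorem exists_exponents [Finite C] {p q r : ℕ} [hp : Fact p.Prime] [hq : Fact q.Prime] (hr : r.Prime) (hpr : r ≠ p)
    (hqr : r ≠ q) {x y : C} (hx : orderOf x = p) (hy : orderOf y = q) (hxy : Commute x y) (T : Subgroup C) [T.Normal]
    (hT : IsPGroup r T) (h1 : ¬ T ≤ centralizer (zpowers x : Set C)) (h2 : ¬ T ≤ centralizer (zpowers y : Set C)) :
    ∃ a b c d, 1 ≤ a ∧ 1 ≤ b ∧ a + d = b + c ∧ r ^ (a + d) ∣ Nat.card C ∧ r ^ a % p = 1 ∧ r ^ b % q = 1 ∧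
      r ^ c % p = 1 ∧ r ^ d % q = 1 := by
  set P := centralizer (zpowers x : Set C) with hP
  set Q := centralizer (zpowers y : Set C) with hQ
  have hxp := isPGroup_zpowers hx
  have hyq := isPGroup_zpowers hy
  -- the normalizations
  have n1 : zpowers x ≤ normalizer (T : Set C) := by rw [Subgroup.normalizer_eq_top T]; exact le_top
  have n2 : zpowers y ≤ normalizer (T : Set C) := by rw [Subgroup.normalizer_eq_top T]; exact le_top
  have key : ∀ a b : C, Commute a b → zpowers a ≤ normalizer ((centralizer (zpowers b : Set C) ⊓ T : Subgroup C) : Set C) := by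
    intro a b hab
    rw [zpowers_le, mem_normalizer_iff]
    intro g
    have h3 : ∀ c : C, Commute c b → ∀ g : C, g ∈ centralizer (zpowers b : Set C) →
        c * g * c⁻¹ ∈ centralizer (zpowers b : Set C) := by
      intro c hc g hg
      rw [mem_centralizer_iff] at hg ⊢
      rintro _ ⟨k, rfl⟩
      have h4 := hg (b ^ k) ⟨k, rfl⟩
      have h5 : Commute c (b ^ k) := hc.zpow_right k
      show b ^ k * (c * g * c⁻¹) = c * g * c⁻¹ * b ^ k
      calc b ^ k * (c * g * c⁻¹) = (b ^ k * c) * g * c⁻¹ := by group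
        _ = c * (b ^ k * g) * c⁻¹ := by rw [← h5.eq]; group
        _ = c * g * (b ^ k * c⁻¹) := by rw [h4]; group
        _ = c * g * (c⁻¹ * b ^ k) := by rw [h5.inv_left.eq]
        _ = c * g * c⁻¹ * b ^ k := by group
    rw [mem_inf, mem_inf]
    constructor
    · rintro ⟨u, v⟩
      exact ⟨h3 a hab g u, Subgroup.Normal.conj_mem inferInstance g v a⟩
    · rintro ⟨u, v⟩
      refine ⟨?_, ?_⟩
      · have := h3 a⁻¹ hab.inv_left _ u
        rwa [inv_inv, show a⁻¹ * (a * g * a⁻¹) * a = g by group] at this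
      · have := Subgroup.Normal.conj_mem (H := T) inferInstance _ v a⁻¹
        rwa [inv_inv, show a⁻¹ * (a * g * a⁻¹) * a = g by group] at this
  obtain ⟨a, ha, ha1⟩ := relIndex_centralizer (zpowers x) T hxp hr hpr hT n1
  obtain ⟨b, hb, hb1⟩ := relIndex_centralizer (zpowers y) T hyq hr hqr hT n2
  obtain ⟨c, hc, hc1⟩ := relIndex_centralizer (zpowers x) (Q ⊓ T) hxp hr hpr (hT.to_le inf_le_right) (key x y hxy)
  obtain ⟨d, hd, hd1⟩ := relIndex_centralizer (zpowers y) (P ⊓ T) hyq hr hqr (hT.to_le inf_le_right) (key y x hxy.symm)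
  rw [← hP] at ha hc
  rw [← hQ] at hb hd
  have e1 : (Q ⊓ (P ⊓ T)).relIndex (P ⊓ T) * (P ⊓ T).relIndex T = (Q ⊓ (P ⊓ T)).relIndex T :=
    relIndex_mul_relIndex _ _ _ inf_le_right inf_le_right
  have e2 : (P ⊓ (Q ⊓ T)).relIndex (Q ⊓ T) * (Q ⊓ T).relIndex T = (P ⊓ (Q ⊓ T)).relIndex T :=
    relIndex_mul_relIndex _ _ _ inf_le_right inf_le_right
  have e3 : P ⊓ (Q ⊓ T) = Q ⊓ (P ⊓ T) := by
    rw [← inf_assoc, ← inf_assoc, inf_comm P Q]
  rw [inf_relIndex_right, inf_relIndex_right, hd, ha] at e1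
  rw [inf_relIndex_right, inf_relIndex_right, hc, hb, e3] at e2
  have e4 : r ^ d * r ^ a = r ^ c * r ^ b := e1.trans e2.symm
  rw [← pow_add, ← pow_add] at e4
  have e5 : d + a = c + b := Nat.pow_right_injective hr.two_le e4
  refine ⟨a, b, c, d, ?_, ?_, by omega, ?_, ha1, hb1, hc1, hd1⟩
  · by_contra h0
    have : a = 0 := by omega
    rw [this, pow_zero, relIndex_eq_one] at ha
    exact h1 ha
  · by_contra h0
    have : b = 0 := by omega
    rw [this, pow_zero, relIndex_eq_one] at hb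
    exact h2 hb
  · rw [← pow_add] at e1
    rw [add_comm a d, e1]
    exact (relIndex_dvd_card _ _).trans (card_subgroup_dvd_card T)

end Cfsg.Agent.H417.TwoNum
end

-- part: H417/CentQS
section
/-!
# The centralizer of a perfect normal subgroup (helper417)

* `card_mul_dvd`: `|X / Z(X)| |C_G(X)|` divides `|G|`;
* `index_dvd`: `|G : C_G(X)|` divides `|Aut(X / Z(X))|`;
* `exists_degree`: a degree goes down to `C_G(X)`.
-/

set_option autoImplicit false

namespace Cfsg.Agent.H417.CentQS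

open Subgroup Cfsg
open scoped commutatorElement
open Cfsg.Agent.H417.Tricho
open Cfsg.Agent.H424.DegTools

universe u v

variable {G : Type u} [Group G]

theorem relIndex_centralizer_self (X : Subgroup G) :
    (centralizer (X : Set G)).relIndex X = Nat.card (X ⧸ center X) := by
  have h1 : (centralizer (X : Set G)).subgroupOf X = center X := by
    ext x
    rw [mem_subgroupOf, mem_centralizer_iff, mem_center_iff]
    constructor
    · intro h g
      exact Subtype.ext (h g g.2)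
    · intro h g hg
      exact congrArg Subtype.val (h ⟨g, hg⟩)
  rw [relIndex, h1]
  rfl

theorem card_mul_dvd [Finite G] (X : Subgroup G) [X.Normal] :
    Nat.card (X ⧸ center X) * Nat.card (centralizer (X : Set G)) ∣ Nat.card G := by
  rw [← relIndex_centralizer_self X, ← (centralizer (X : Set G)).index_mul_card]
  exact Nat.mul_dvd_mul (relIndex_dvd_index_of_normal _ _) dvd_rfl

/-- an element acting trivially modulo the centre of a perfect normal subgroup -/
theorem mem_centralizer_of (X : Subgroup G) (hX : commutator X = ⊤) {g : G}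
    (h : ∀ x ∈ X, g * x * g⁻¹ * x⁻¹ ∈ (center X).map X.subtype) : g ∈ centralizer (X : Set G) := by
  have h0 : (⁅X, X⁆ : Subgroup G) = X := by
    have h1 : (commutator X).map X.subtype = ⁅X, X⁆ := by
      rw [_root_.commutator_def, Subgroup.map_commutator, ← MonoidHom.range_eq_map, Subgroup.range_subtype]
    rw [← h1, hX, ← MonoidHom.range_eq_map, Subgroup.range_subtype]
  have hz : ∀ z ∈ (center X).map X.subtype, ∀ x ∈ X, z * x = x * z := by
    rintro _ ⟨z, hz, rfl⟩ x hx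
    exact (congrArg Subtype.val (mem_center_iff.1 hz ⟨x, hx⟩)).symm
  have hle : X ≤ centralizer ({g} : Set G) := by
    rw [← h0, commutator_le]
    intro a ha b hb
    rw [mem_centralizer_singleton_iff]
    obtain ⟨z, hzm, hza⟩ : ∃ z ∈ (center X).map X.subtype, g * a * g⁻¹ = z * a := ⟨_, h a ha, by group⟩
    obtain ⟨w, hwm, hwb⟩ : ∃ z ∈ (center X).map X.subtype, g * b * g⁻¹ = z * b := ⟨_, h b hb, by group⟩
    have hX' : (center X).map X.subtype ≤ X := map_subtype_le _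
    have h1 : g * ⁅a, b⁆ * g⁻¹ = ⁅g * a * g⁻¹, g * b * g⁻¹⁆ := by
      rw [commutatorElement_def, commutatorElement_def]; group
    have h2 : ⁅z * a, w * b⁆ = ⁅a, b⁆ := by
      have e1 : z * a = a * z := hz z hzm a ha
      have e2 : Commute z (w * b) := hz z hzm _ (X.mul_mem (hX' hwm) hb)
      have e3 : Commute w a := hz w hwm a ha
      rw [commutatorElement_def, commutatorElement_def, mul_inv_rev, mul_inv_rev]
      calc z * a * (w * b) * (a⁻¹ * z⁻¹) * (b⁻¹ * w⁻¹) = a * (z * (w * b)) * (a⁻¹ * z⁻¹) * (b⁻¹ * w⁻¹) := by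
            rw [e1]; group
        _ = a * (w * b) * (z * (a⁻¹ * z⁻¹)) * (b⁻¹ * w⁻¹) := by rw [e2.eq]; group
        _ = a * (w * b) * a⁻¹ * (b⁻¹ * w⁻¹) := by
            have : z * (a⁻¹ * z⁻¹) = a⁻¹ := by
              have h5 : Commute z a⁻¹ := (show Commute z a from hz z hzm a ha).inv_right
              rw [← mul_assoc, h5.eq]; group
            rw [this]
        _ = w * (a * b * a⁻¹) * b⁻¹ * w⁻¹ := by
            have : a * (w * b) = w * (a * b) := by rw [← mul_assoc, ← e3.eq, mul_assoc]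
            rw [this]; group
        _ = a * b * a⁻¹ * b⁻¹ := by
            have h5 : Commute w (a * b * a⁻¹ * b⁻¹) := hz w hwm _
              (X.mul_mem (X.mul_mem (X.mul_mem ha hb) (X.inv_mem ha)) (X.inv_mem hb))
            have h6 : w * (a * b * a⁻¹) * b⁻¹ * w⁻¹ = w * (a * b * a⁻¹ * b⁻¹) * w⁻¹ := by group
            rw [h6, h5.eq, mul_inv_cancel_right]
    rw [hza, hwb, h2] at h1
    calc ⁅a, b⁆ * g = g * ⁅a, b⁆ * g⁻¹ * g := by rw [h1]
      _ = g * ⁅a, b⁆ := by group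
  rw [mem_centralizer_iff]
  intro x hx
  exact mem_centralizer_singleton_iff.1 (hle hx)

theorem index_dvd [Finite G] (X : Subgroup G) [X.Normal] (hX : commutator X = ⊤) :
    (centralizer (X : Set G)).index ∣ Nat.card (MulAut (X ⧸ center X)) := by
  set Z : Subgroup G := (center X).map X.subtype with hZ
  obtain ⟨e⟩ := quot_equiv X Z hZ
  have hNn : (X.map (QuotientGroup.mk' Z)).Normal := Subgroup.Normal.map inferInstance _ (QuotientGroup.mk'_surjective Z)
  let f : G →* MulAut (X.map (QuotientGroup.mk' Z)) :=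
    (MulAut.conjNormal (H := X.map (QuotientGroup.mk' Z))).comp (QuotientGroup.mk' Z)
  have hker : f.ker ≤ centralizer (X : Set G) := by
    intro g hg
    rw [MonoidHom.mem_ker] at hg
    have h1 : ∀ x ∈ X, g * x * g⁻¹ * x⁻¹ ∈ Z := by
      intro x hx
      have h2 := congrArg (fun φ : MulAut (X.map (QuotientGroup.mk' Z)) =>
        ((φ ⟨QuotientGroup.mk' Z x, ⟨x, hx, rfl⟩⟩ : X.map (QuotientGroup.mk' Z)) : G ⧸ Z)) hg
      have h3 : QuotientGroup.mk' Z g * QuotientGroup.mk' Z x * (QuotientGroup.mk' Z g)⁻¹ = QuotientGroup.mk' Z x := by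
        simpa [f] using h2
      rw [← map_inv, ← map_mul, ← map_mul] at h3
      rw [← QuotientGroup.eq_one_iff]
      have h4 : QuotientGroup.mk' Z (g * x * g⁻¹ * x⁻¹) = 1 := by
        rw [map_mul, h3, map_inv, mul_inv_cancel]
      exact h4
    exact mem_centralizer_of X hX h1
  have h5 : f.ker.index ∣ Nat.card (MulAut (X.map (QuotientGroup.mk' Z))) := by
    rw [Subgroup.index_ker]
    exact card_subgroup_dvd_card _
  rw [Nat.card_congr (MulAut.congr e).toEquiv]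
  exact (index_dvd_of_le hker).trans h5

/-- degrees go down to the centralizer -/
theorem exists_degree [Finite G] (X : Subgroup G) [X.Normal] {d m : ℕ} (hd : d ∈ charDegrees G) (hm : m ∣ d)
    (hc : m.Coprime (centralizer (X : Set G)).index) :
    ∃ c ∈ charDegrees (centralizer (X : Set G)), m ∣ c ∧ c ∣ d := by
  obtain ⟨c, h1, h2, h3⟩ := clifford_down (centralizer (X : Set G)) hd
  refine ⟨c, h1, ?_, h2⟩
  have h4 : m ∣ c * (d / c) := by rw [Nat.mul_div_cancel' h2]; exact hm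
  exact (Nat.Coprime.coprime_dvd_right h3 hc).dvd_of_dvd_mul_right h4

end Cfsg.Agent.H417.CentQS
end

-- part: H417/PairPQ
section
/-!
# Two Sylow subgroups of prime orders acting on normal `2`-subgroups (helper417)
-/

set_option autoImplicit false

namespace Cfsg.Agent.H417.PairPQ

open Subgroup Cfsg Cfsg.Agent.OrdDiv
open Cfsg.Agent.H424.DegTools
open Cfsg.Agent.H417.DegQuasi Cfsg.Agent.H417.Tricho Cfsg.Agent.H417.Engine Cfsg.Agent.H417.CommPQ
open Cfsg.Agent.H417.TwoNum Cfsg.Agent.H417.CentQS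

universe u

variable {C : Type u} [Group C]

/-- commuting elements, from the table -/
theorem exists_com [Finite C] (T : OrderTable.{u}) (hK : ∀ (K : Type u) [Group K] [Finite K] [IsSimpleGroup K],
    IsKnownSimple' K) {p q n : ℕ} [hp : Fact p.Prime] [hq : Fact q.Prime] {l : List (ℕ × ℕ)} (hv : valid l n = true)
    (hb : bad l n q = []) (hqp : ¬ q ∣ p - 1) (hpq : ¬ p ∣ q - 1) (hne : p ≠ q) (hd : Nat.card C ∣ n)
    (h1 : p ∣ Nat.card C) (h2 : q ∣ Nat.card C) (hp2 : ¬ p ^ 2 ∣ n) (hq2 : ¬ q ^ 2 ∣ n) : Com p q C := by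
  refine exists_commute hqp hpq hne (Nat.card C) C rfl h1 h2 (fun h => hp2 (h.trans hd)) (fun h => hq2 (h.trans hd)) ?_
  intro T' _ _ hs hna hT' hdvd
  obtain ⟨g, hg, hr, hgo⟩ := exists_good T (hK T') hna hv (hT'.trans hd)
  have h3 : g ∈ bad l n q := by
    rw [bad, List.mem_filter]
    refine ⟨hg, ?_⟩
    rw [Bool.not_eq_true', ← Bool.not_eq_true]
    intro h3
    rw [Bool.and_eq_true, bne_iff_ne] at h3
    apply h3.1
    rw [← hgo]
    exact Nat.mod_eq_zero_of_dvd ((dvd_mul_left q p).trans hdvd)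
  rw [hb] at h3
  exact List.not_mem_nil h3

/-- the Sylow subgroup of an element -/
theorem sylow_of [Finite C] {p : ℕ} [hp : Fact p.Prime] {x : C} (hx : orderOf x = p) (hp2 : ¬ p ^ 2 ∣ Nat.card C) :
    ∃ P : Sylow p C, (P : Subgroup C) = zpowers x ∧ Nat.card P = p := by
  have h1 : Nat.card (zpowers x) = p := by rw [Nat.card_zpowers, hx]
  have h2 : (Nat.card C).factorization p = 1 := by
    apply le_antisymm
    · by_contra h3
      exact hp2 ((hp.out.pow_dvd_iff_le_factorization Nat.card_pos.ne').2 (by omega))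
    · refine (hp.out.dvd_iff_one_le_factorization Nat.card_pos.ne').1 ?_
      rw [← h1]
      exact card_subgroup_dvd_card _
  exact ⟨Sylow.ofCard (zpowers x) (by rw [h1, h2, pow_one]), rfl, h1⟩

/-- **The pair lemma**: two normal `2`-subgroups, not centralized by the first and by the second element. -/
theorem exists_exp [Finite C] {p q : ℕ} [hp : Fact p.Prime] [hq : Fact q.Prime] (hp2 : 2 ≠ p) (hq2 : 2 ≠ q)
    {x y : C} (hx : orderOf x = p) (hy : orderOf y = q) (hxy : Commute x y) (X Y : Subgroup C) (hX : X.Normal)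
    (hY : Y.Normal) (hX2 : IsPGroup 2 X) (hY2 : IsPGroup 2 Y) (h1 : ¬ X ≤ centralizer (zpowers x : Set C))
    (h2 : ¬ Y ≤ centralizer (zpowers y : Set C)) :
    ∃ a b c d, 1 ≤ a ∧ 1 ≤ b ∧ a + d = b + c ∧ 2 ^ (a + d) ∣ Nat.card C ∧ 2 ^ a % p = 1 ∧ 2 ^ b % q = 1 ∧
      2 ^ c % p = 1 ∧ 2 ^ d % q = 1 :=
  exists_exponents Nat.prime_two hp2 hq2 hx hy hxy (X ⊔ Y) (hX2.to_sup_of_normal_right hY2)
    (fun h => h1 (le_sup_left.trans h)) (fun h => h2 (le_sup_right.trans h))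

theorem mod43 : ∀ a < 22, 2 ^ a % 43 = 1 → a = 0 ∨ a = 14 := by decide
theorem mod31 : ∀ a < 22, 2 ^ a % 31 = 1 → a = 0 ∨ a = 5 ∨ a = 10 ∨ a = 15 ∨ a = 20 := by decide
theorem mod23 : ∀ a < 22, 2 ^ a % 23 = 1 → a = 0 ∨ a = 11 := by decide

theorem exp_lt {k n : ℕ} (h : 2 ^ k ∣ n) {m : ℕ} (hm : ¬ 2 ^ m ∣ n) : k < m := by
  by_contra h1
  exact hm ((pow_dvd_pow 2 (by omega)).trans h)

instance f23 : Fact (Nat.Prime 23) := ⟨by norm_num⟩
instance f29 : Fact (Nat.Prime 29) := ⟨by norm_num⟩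
instance f31 : Fact (Nat.Prime 31) := ⟨by norm_num⟩
instance f37 : Fact (Nat.Prime 37) := ⟨by norm_num⟩
instance f43 : Fact (Nat.Prime 43) := ⟨by norm_num⟩

/-- `43` and `31` -/
theorem dvd_of_pair [Finite C] {x y : C} (hx : orderOf x = 43) (hy : orderOf y = 31) (hxy : Commute x y)
    (X Y : Subgroup C) (hX : X.Normal) (hY : Y.Normal) (hX2 : IsPGroup 2 X) (hY2 : IsPGroup 2 Y)
    (h1 : ¬ X ≤ centralizer (zpowers x : Set C)) (h2 : ¬ Y ≤ centralizer (zpowers y : Set C)) :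
    2 ^ 19 ∣ Nat.card C := by
  by_contra hcon
  obtain ⟨a, b, c, d, ha, hb, he, hdv, h3, h4, h5, h6⟩ := exists_exp (by norm_num) (by norm_num) hx hy hxy X Y hX hY
    hX2 hY2 h1 h2
  have hlt := exp_lt hdv hcon
  have := mod43 a (by omega) h3
  have := mod31 b (by omega) h4
  have := mod43 c (by omega) h5
  have := mod31 d (by omega) h6
  omega

/-- `43` and `23` -/
theorem dvd_of_pair' [Finite C] {x y : C} (hx : orderOf x = 43) (hy : orderOf y = 23) (hxy : Commute x y)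
    (X Y : Subgroup C) (hX : X.Normal) (hY : Y.Normal) (hX2 : IsPGroup 2 X) (hY2 : IsPGroup 2 Y)
    (h1 : ¬ X ≤ centralizer (zpowers x : Set C)) (h2 : ¬ Y ≤ centralizer (zpowers y : Set C)) :
    2 ^ 20 ∣ Nat.card C := by
  by_contra hcon
  obtain ⟨a, b, c, d, ha, hb, he, hdv, h3, h4, h5, h6⟩ := exists_exp (by norm_num) (by norm_num) hx hy hxy X Y hX hY
    hX2 hY2 h1 h2
  have hlt := exp_lt hdv hcon
  have := mod43 a (by omega) h3
  have := mod23 b (by omega) h4
  have := mod43 c (by omega) h5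
  have := mod23 d (by omega) h6
  omega

/-- The pair `43, 31`, no exceptional candidates. -/
theorem pair_false [Finite C] (T : OrderTable.{u}) (hK : ∀ (K : Type u) [Group K] [Finite K] [IsSimpleGroup K],
    IsKnownSimple' K) {n : ℕ} {l : List (ℕ × ℕ)} (hv : valid l n = true) (ho : once l n = true)
    (h43 : onlyTwo l 43 = true) (h31 : onlyTwo l 31 = true) (hb43 : bad l n 43 = []) (hb31 : bad l n 31 = [])
    (hd : Nat.card C ∣ n) (hn43 : ¬ 43 ^ 2 ∣ n) (hn31 : ¬ 31 ^ 2 ∣ n) (hn2 : ¬ 2 ^ 19 ∣ n)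
    (hd43 : 43 ∣ Nat.card C) (hd31 : 31 ∣ Nat.card C) (hP : ∀ P : Sylow 43 C, ¬ (P : Subgroup C).Normal)
    (hQ : ∀ P : Sylow 31 C, ¬ (P : Subgroup C).Normal) : False := by
  obtain ⟨x, y, hx, hy, hxy⟩ := exists_com (p := 43) (q := 31) T hK hv hb31 (by norm_num) (by norm_num) (by norm_num)
    hd hd43 hd31 hn43 hn31
  obtain ⟨P, hPx, hPc⟩ := sylow_of hx (fun h => hn43 (h.trans hd))
  obtain ⟨Q, hQy, hQc⟩ := sylow_of hy (fun h => hn31 (h.trans hd))
  obtain ⟨X, hX, hXc, h1⟩ := engine_two T hK hv ho h43 hd P hPc (hP P)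
  obtain ⟨Y, hY, hYc, h2⟩ := engine_two T hK hv ho h31 hd Q hQc (hQ Q)
  rw [hPx] at hXc
  rw [hQy] at hYc
  rcases h1 with h1 | ⟨-, -, -, g, hg, -⟩
  · rcases h2 with h2 | ⟨-, -, -, g, hg, -⟩
    · exact hn2 ((dvd_of_pair hx hy hxy X Y hX hY h1 h2 hXc hYc).trans hd)
    · rw [hb31] at hg
      exact List.not_mem_nil hg
  · rw [hb43] at hg
    exact List.not_mem_nil hg

end Cfsg.Agent.H417.PairPQ
end

-- part: H417/JFourCase
section
/-!
# Groups of the order of `J₄` : the cases of a quasisimple normal subgroup over `U₃(11)` or `L₂(29)` (helper417)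
-/

set_option autoImplicit false

namespace Cfsg.Agent.H417.JFourCase

open Subgroup Cfsg Cfsg.Agent.OrdDiv
open Cfsg.Agent.H424.DegTools
open Cfsg.Agent.H417.DegQuasi Cfsg.Agent.H417.QSTools Cfsg.Agent.H417.Tricho Cfsg.Agent.H417.Engine
open Cfsg.Agent.H417.CommPQ Cfsg.Agent.H417.TwoNum Cfsg.Agent.H417.CentQS Cfsg.Agent.H417.PairPQ

universe u

/-- the order of `J₄` -/
def NJ : ℕ := 86775571046077562880

/-- factorizations -/
def lN : List (ℕ × ℕ) := [(2,21),(3,3),(5,1),(7,1),(11,3),(23,1),(29,1),(31,1),(37,1),(43,1)]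
/-- factorization of `|J₄| / |U₃(11)|` -/
def lU : List (ℕ × ℕ) := [(2,16),(3,1),(7,1),(23,1),(29,1),(31,1),(43,1)]
/-- `|J₄| / |U₃(11)|` -/
def nU : ℕ := 1223644348416
/-- factorization of `|J₄| / |L₂(29)|` -/
def lL : List (ℕ × ℕ) := [(2,19),(3,2),(11,3),(23,1),(31,1),(37,1),(43,1)]
/-- `|J₄| / |L₂(29)|` -/
def nL : ℕ := 7124431120367616
/-- divided by `|L₂(23)|` -/
def lL1 : List (ℕ × ℕ) := [(2,16),(3,1),(11,2),(31,1),(37,1),(43,1)]
/-- divided by `|L₂(23)|` -/
def nL1 : ℕ := 1173325283328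
/-- divided by `|L₂(32)|` -/
def lL2 : List (ℕ × ℕ) := [(2,11),(11,1),(37,1),(43,1)]
/-- divided by `|L₂(32)|` -/
def nL2 : ℕ := 35842048

theorem valid_N : valid lN NJ = true := by decide +kernel
theorem valid_U : valid lU nU = true := by decide +kernel
theorem valid_L : valid lL nL = true := by decide +kernel
theorem valid_L1 : valid lL1 nL1 = true := by decide +kernel
theorem valid_L2 : valid lL2 nL2 = true := by decide +kernel
private noncomputable def _root_.Cfsg.Agent.KO17e88ed.oEq.{ku} (α : Sort ku) (a b : Nat) (f t : α) : α := @Decidable.rec (a = b) (fun _ => α) (fun _ => f) (fun _ => t) (Nat.decEq a b)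
private noncomputable def _root_.Cfsg.Agent.KO17e88ed.k0.{ku} (α : Sort ku) (a b : Nat) (f t : α) : α := @Bool.rec (fun _ => α) f t (Nat.beq a b)
private theorem _root_.Cfsg.Agent.KO17e88ed.e0.{ku} : @_root_.Cfsg.Agent.KO17e88ed.oEq.{ku} = @_root_.Cfsg.Agent.KO17e88ed.k0.{ku} := funext fun α => funext fun a => funext fun b => funext fun f => funext fun t => by delta _root_.Cfsg.Agent.KO17e88ed.oEq _root_.Cfsg.Agent.KO17e88ed.k0; cases h : Nat.beq a b <;> cases Nat.decEq a b <;> rename_i g <;> first | rfl | exact absurd g (Nat.ne_of_beq_eq_false h) | exact absurd (Nat.eq_of_beq_eq_true h) g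
private theorem _root_.Cfsg.Agent.KO17e88ed.e1.{ku, kv} {α : Type kv} {M : List α → Sort ku} (φ : ∀ l, M l) {z : M List.nil} {s : ∀ a l, M l → M (List.cons a l)} (h0 : φ List.nil = z) (hs : ∀ a l, φ (List.cons a l) = s a l (φ l)) (l : List α) : φ l = @List.rec α M z s l := List.rec h0 (fun a l ih => (hs a l).trans (congrArg (s a l) ih)) l
private noncomputable def _root_.Cfsg.Agent.KO17e88ed.k2.{ku0} : type_of% @List.all.{ku0} := @(fun x0 x1 x2 => @List.rec.{(ku0+1), ku0} @x0 @(fun x3 => (@x0 → @Bool) → @Bool) @(fun x3 => @Bool.true) @(fun x3 x4 x5 x6 => @Bool.rec.{1} @(fun x7 => @Bool) @Bool.false (@x5 @x6) (@x6 @x3)) @x1 @x2)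
private theorem _root_.Cfsg.Agent.KO17e88ed.e2.{ku0} : @List.all.{ku0} = @_root_.Cfsg.Agent.KO17e88ed.k2.{ku0} := by delta _root_.Cfsg.Agent.KO17e88ed.k2; funext a0 a1 a2; refine (congrFun (_root_.Cfsg.Agent.KO17e88ed.e1 (fun a1 a2 => @List.all.{ku0} a0 a1 a2) ?_ (fun c0 c1 => ?_) a1) a2 :) <;> (rfl')
private noncomputable def _root_.Cfsg.Agent.KO17e88ed.k3.{ku0} : type_of% @List.append.{ku0} := @(fun x0 x1 x2 => @List.rec.{(ku0+1), ku0} @x0 @(fun x3 => (@List.{ku0} @x0) → @List.{ku0} @x0) @(fun x3 => @x3) @(fun x3 x4 x5 x6 => @x3 :: (@x5 @x6)) @x1 @x2)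
private theorem _root_.Cfsg.Agent.KO17e88ed.e3.{ku0} : @List.append.{ku0} = @_root_.Cfsg.Agent.KO17e88ed.k3.{ku0} := by delta _root_.Cfsg.Agent.KO17e88ed.k3; funext a0 a1 a2; refine (congrFun (_root_.Cfsg.Agent.KO17e88ed.e1 (fun a1 a2 => @List.append.{ku0} a0 a1 a2) ?_ (fun c0 c1 => ?_) a1) a2 :) <;> (rfl')
private noncomputable def _root_.Cfsg.Agent.KO17e88ed.k4.{ku0} : type_of% @List.flatten.{ku0} := @(fun x0 x1 => @List.rec.{(ku0+1), ku0} (@List.{ku0} @x0) @(fun x2 => @List.{ku0} @x0) [] @(fun x2 x3 x4 => @Cfsg.Agent.KO17e88ed.k3.{ku0} _ @x2 @x4) @x1)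
private theorem _root_.Cfsg.Agent.KO17e88ed.e4.{ku0} : @List.flatten.{ku0} = @_root_.Cfsg.Agent.KO17e88ed.k4.{ku0} := by delta _root_.Cfsg.Agent.KO17e88ed.k4; rewrite [← Cfsg.Agent.KO17e88ed.e3.{ku0}]; funext a0 a1; refine (_root_.Cfsg.Agent.KO17e88ed.e1 (fun a1 => @List.flatten.{ku0} a0 a1) ?_ (fun c0 c1 => ?_) a1 :) <;> (rfl')
private noncomputable def _root_.Cfsg.Agent.KO17e88ed.k5.{ku0, ku1} : type_of% @List.map.{ku0, ku1} := @(fun x0 x1 x2 x3 => @List.rec.{(ku1+1), ku0} @x0 @(fun x4 => @List.{ku1} @x1) [] @(fun x4 x5 x6 => (@x2 @x4) :: @x6) @x3)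
private theorem _root_.Cfsg.Agent.KO17e88ed.e5.{ku0, ku1} : @List.map.{ku0, ku1} = @_root_.Cfsg.Agent.KO17e88ed.k5.{ku0, ku1} := by delta _root_.Cfsg.Agent.KO17e88ed.k5; funext a0 a1 a2 a3; refine (_root_.Cfsg.Agent.KO17e88ed.e1 (fun a3 => @List.map.{ku0, ku1} a0 a1 a2 a3) ?_ (fun c0 c1 => ?_) a3 :) <;> (rfl')
private noncomputable def _root_.Cfsg.Agent.KO17e88ed.oB.{ku} (α : Sort ku) (c : Bool) (f t : α) : α := @Decidable.rec (c = true) (fun _ => α) (fun _ => f) (fun _ => t) (instDecidableEqBool c true)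
private noncomputable def _root_.Cfsg.Agent.KO17e88ed.k6.{ku} (α : Sort ku) (c : Bool) (f t : α) : α := @Bool.rec (fun _ => α) f t c
private theorem _root_.Cfsg.Agent.KO17e88ed.e6.{ku} : @_root_.Cfsg.Agent.KO17e88ed.oB.{ku} = @_root_.Cfsg.Agent.KO17e88ed.k6.{ku} := funext fun α => funext fun c => funext fun f => funext fun t => by cases c <;> rfl
private noncomputable def _root_.Cfsg.Agent.KO17e88ed.k7.{ku0} : type_of% @List.filter.{ku0} := @(fun x0 x1 x2 => @List.rec.{(ku0+1), ku0} @x0 @(fun x3 => @List.{ku0} @x0) [] @(fun x3 x4 x5 => @Bool.rec.{(ku0+1)} @(fun x6 => @List.{ku0} @x0) @x5 (@x3 :: @x5) (@x1 @x3)) @x2)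
private theorem _root_.Cfsg.Agent.KO17e88ed.e7.{ku0} : @List.filter.{ku0} = @_root_.Cfsg.Agent.KO17e88ed.k7.{ku0} := by delta _root_.Cfsg.Agent.KO17e88ed.k7; funext a0 a1 a2; refine (_root_.Cfsg.Agent.KO17e88ed.e1 (fun a2 => @List.filter.{ku0} a0 a1 a2) ?_ (fun c0 c1 => ?_) a2 :) <;> (rfl')
private theorem _root_.Cfsg.Agent.KO17e88ed.e8.{ku} {M : Nat → Sort ku} (φ : ∀ n, M n) {z : M Nat.zero} {s : ∀ n, M n → M (Nat.succ n)} (h0 : φ Nat.zero = z) (hs : ∀ n, φ (Nat.succ n) = s n (φ n)) (n : Nat) : φ n = @Nat.rec M z s n := Nat.rec h0 (fun n ih => (hs n).trans (congrArg (s n) ih)) n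
private noncomputable def _root_.Cfsg.Agent.KO17e88ed.k9 : type_of% @Nat.factorial := @(fun x0 => @Nat.rec.{1} @(fun x1 => ℕ) (nat_lit 1) @(fun x1 x2 => @Nat.mul (@Nat.succ @x1) @x2) @x0)
private theorem _root_.Cfsg.Agent.KO17e88ed.e9 : @Nat.factorial = @_root_.Cfsg.Agent.KO17e88ed.k9 := by delta _root_.Cfsg.Agent.KO17e88ed.k9; funext a0; refine (_root_.Cfsg.Agent.KO17e88ed.e8 (fun a0 => @Nat.factorial a0) ?_ (fun c0 => ?_) a0 :) <;> (rfl')
private noncomputable def _root_.Cfsg.Agent.KO17e88ed.k10 : type_of% @List.range.loop := @(fun x0 x1 => @Nat.rec.{1} @(fun x2 => (@List.{0} ℕ) → @List.{0} ℕ) @(fun x2 => @x2) @(fun x2 x3 x4 => @x3 (@x2 :: @x4)) @x0 @x1)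
private theorem _root_.Cfsg.Agent.KO17e88ed.e10 : @List.range.loop = @_root_.Cfsg.Agent.KO17e88ed.k10 := by delta _root_.Cfsg.Agent.KO17e88ed.k10; funext a0 a1; refine (congrFun (_root_.Cfsg.Agent.KO17e88ed.e8 (fun a0 a1 => @List.range.loop a0 a1) ?_ (fun c0 => ?_) a0) a1 :) <;> (rfl')
private noncomputable def _root_.Cfsg.Agent.KO17e88ed.k11 : (by first | exact type_of% @Cfsg.Agent.OrdDiv.candAlt | exact Unit : Sort _) := by first | (refine @Subtype.val _ (fun g => @Cfsg.Agent.OrdDiv.candAlt = @g) (@Subtype.mk _ _ (@(fun x0 x1 => @Cfsg.Agent.KO17e88ed.k4.{0} _ (@Cfsg.Agent.KO17e88ed.k5.{0, 0} _ _ @(fun x2 => @Cfsg.Agent.KO17e88ed.k6.{1} (@List.{0} ℕ) (@Nat.beq (@Prod.fst.{0, 0} _ _ @x2) (nat_lit 2)) [] (@Cfsg.Agent.KO17e88ed.k7.{0} _ @(fun x3 => @Bool.rec.{1} @(fun x4 => @Bool) @Bool.false (@Cfsg.Agent.KO17e88ed.k0.{1} @Bool (@Nat.mod (@Nat.mul (nat_lit 2) @x1) (@Cfsg.Agent.KO17e88ed.k9 @x3)) (nat_lit 0) @Bool.false @Bool.true)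 (@Nat.ble (nat_lit 5) @x3)) (@Cfsg.Agent.KO17e88ed.k10 (@Nat.add (@Nat.mul (nat_lit 2) (@Prod.snd.{0, 0} _ _ @x2)) (nat_lit 4)) []))) @x0))) ?_); rewrite [← Cfsg.Agent.KO17e88ed.e10, ← Cfsg.Agent.KO17e88ed.e9, ← Cfsg.Agent.KO17e88ed.e0.{1}, ← Cfsg.Agent.KO17e88ed.e7.{0}, ← Cfsg.Agent.KO17e88ed.e6.{1}, ← Cfsg.Agent.KO17e88ed.e5.{0, 0}, ← Cfsg.Agent.KO17e88ed.e4.{0}]; rfl') | exact @Cfsg.Agent.OrdDiv.candAlt | exact ()
private theorem _root_.Cfsg.Agent.KO17e88ed.e11 : (by first | exact @Cfsg.Agent.OrdDiv.candAlt = @_root_.Cfsg.Agent.KO17e88ed.k11 | exact True : Prop) := by first | (delta _root_.Cfsg.Agent.KO17e88ed.k11; exact @Subtype.property _ (fun g => @Cfsg.Agent.OrdDiv.candAlt = @g) _) | rfl | trivial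
private noncomputable def _root_.Cfsg.Agent.KO17e88ed.k12 : (by first | exact type_of% @Cfsg.Agent.OrdDiv.box | exact Unit : Sort _) := by first | (refine @Subtype.val _ (fun g => @Cfsg.Agent.OrdDiv.box = @g) (@Subtype.mk _ _ (@(fun x0 x1 x2 => @Cfsg.Agent.KO17e88ed.k4.{0} _ (@Cfsg.Agent.KO17e88ed.k5.{0, 0} _ _ @(fun x3 => @Cfsg.Agent.KO17e88ed.k4.{0} _ (@Cfsg.Agent.KO17e88ed.k5.{0, 0} _ _ @(fun x4 => @Cfsg.Agent.KO17e88ed.k5.{0, 0} _ _ @(fun x5 => (@x5, @Nat.pow (@Prod.fst.{0, 0} _ _ @x3) (@Nat.add @x4 (nat_lit 1)))) (@Cfsg.Agent.KO17e88ed.k7.{0} _ @(fun x5 => @Bool.rec.{1} @(fun x6 => @Bool) @Bool.false (@Nat.ble (@Nat.mul (@x1 @x5) (@Nat.add @x4 (nat_lit 1))) (@Prod.snd.{0, 0} _ _ @x3)) (@Nat.ble @x2 @x5)) (@Cfsg.Agent.KO17e88ed.k10 (@Nat.add (@Prod.snd.{0, 0} _ _ @x3) (nat_lit 2)) []))) (@Cfsg.Agent.KO17e88ed.k10 (@Prod.snd.{0, 0} _ _ @x3) []))) @x0))) ?_); rewrite [← Cfsg.Agent.KO17e88ed.e10, ← Cfsg.Agent.KO17e88ed.e7.{0},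 ← Cfsg.Agent.KO17e88ed.e5.{0, 0}, ← Cfsg.Agent.KO17e88ed.e4.{0}]; rfl') | exact @Cfsg.Agent.OrdDiv.box | exact ()
private theorem _root_.Cfsg.Agent.KO17e88ed.e12 : (by first | exact @Cfsg.Agent.OrdDiv.box = @_root_.Cfsg.Agent.KO17e88ed.k12 | exact True : Prop) := by first | (delta _root_.Cfsg.Agent.KO17e88ed.k12; exact @Subtype.property _ (fun g => @Cfsg.Agent.OrdDiv.box = @g) _) | rfl | trivial
private noncomputable def _root_.Cfsg.Agent.KO17e88ed.k13 : (by first | exact type_of% @Cfsg.Agent.OrdDiv.cand | exact Unit : Sort _) := by first | (refine @Subtype.val _ (fun g => @Cfsg.Agent.OrdDiv.cand = @g) (@Subtype.mk _ _ (@(fun x0 x1 x2 => @Cfsg.Agent.KO17e88ed.k7.{0} _ @(fun x3 => @Bool.rec.{1} @(fun x4 => @Bool) @Bool.false (@Cfsg.Agent.KO17e88ed.k0.{1} @Bool (@Nat.mod (@Nat.mul (@Cfsg.Agent.OrdDiv.Fam.den @x2 (@Prod.fst.{0, 0} _ _ @x3) (@Prod.snd.{0, 0} _ _ @x3)) @x1) (@Cfsg.Agent.OrdDiv.Fam.num @x2 (@Prod.fst.{0, 0} _ _ @x3)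 (@Prod.snd.{0, 0} _ _ @x3))) (nat_lit 0) @Bool.false @Bool.true) (@Cfsg.Agent.OrdDiv.Fam.ok @x2 (@Prod.fst.{0, 0} _ _ @x3) (@Prod.snd.{0, 0} _ _ @x3))) (@Cfsg.Agent.KO17e88ed.k12 @x0 (@Cfsg.Agent.OrdDiv.Fam.e @x2) (@Cfsg.Agent.OrdDiv.Fam.lo @x2)))) ?_); rewrite [← Cfsg.Agent.KO17e88ed.e12, ← Cfsg.Agent.KO17e88ed.e0.{1}, ← Cfsg.Agent.KO17e88ed.e7.{0}]; (try delta Cfsg.Agent.OrdDiv.cand); (try generalize @Cfsg.Agent.OrdDiv.box = g0); rfl') | exact @Cfsg.Agent.OrdDiv.cand | exact ()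
private theorem _root_.Cfsg.Agent.KO17e88ed.e13 : (by first | exact @Cfsg.Agent.OrdDiv.cand = @_root_.Cfsg.Agent.KO17e88ed.k13 | exact True : Prop) := by first | (delta _root_.Cfsg.Agent.KO17e88ed.k13; exact @Subtype.property _ (fun g => @Cfsg.Agent.OrdDiv.cand = @g) _) | rfl | trivial
private noncomputable def _root_.Cfsg.Agent.KO17e88ed.k14 : (by first | exact type_of% @Cfsg.Agent.OrdDiv.cands | exact Unit : Sort _) := by first | (refine @Subtype.val _ (fun g => @Cfsg.Agent.OrdDiv.cands = @g) (@Subtype.mk _ _ (@(fun x0 x1 => @Cfsg.Agent.KO17e88ed.k4.{0} _ ((@Cfsg.Agent.KO17e88ed.k5.{0, 0} _ _ @Cfsg.Agent.OrdDiv.Grp.alt (@Cfsg.Agent.KO17e88ed.k11 @x0 @x1)) :: ((@Cfsg.Agent.KO17e88ed.k5.{0, 0} _ _ @(fun x2 => @Cfsg.Agent.OrdDiv.Grp.psl (@Prod.fst.{0, 0} _ _ @x2) (@Prod.snd.{0, 0} _ _ @x2)) (@Cfsg.Agent.KO17e88ed.k13 @x0 @x1 @Cfsg.Agent.OrdDiv.fPSL)) :: ((@Cfsg.Agent.KO17e88ed.k5.{0, 0} _ _ @(fun x2 => @Cfsg.Agent.OrdDiv.Grp.psp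 (@Prod.fst.{0, 0} _ _ @x2) (@Prod.snd.{0, 0} _ _ @x2)) (@Cfsg.Agent.KO17e88ed.k13 @x0 @x1 @Cfsg.Agent.OrdDiv.fPSp)) :: ((@Cfsg.Agent.KO17e88ed.k5.{0, 0} _ _ @(fun x2 => @Cfsg.Agent.OrdDiv.Grp.psu (@Prod.fst.{0, 0} _ _ @x2) (@Prod.snd.{0, 0} _ _ @x2)) (@Cfsg.Agent.KO17e88ed.k13 @x0 @x1 @Cfsg.Agent.OrdDiv.fPSU)) :: ((@Cfsg.Agent.KO17e88ed.k5.{0, 0} _ _ @(fun x2 => @Cfsg.Agent.OrdDiv.Grp.oodd (@Prod.fst.{0, 0} _ _ @x2) (@Prod.snd.{0, 0} _ _ @x2)) (@Cfsg.Agent.KO17e88ed.k13 @x0 @x1 @Cfsg.Agent.OrdDiv.fOOdd)) :: ((@Cfsg.Agent.KO17e88ed.k5.{0, 0} _ _ @(fun x2 => @Cfsg.Agent.OrdDiv.Grp.oplus (@Prod.fst.{0, 0} _ _ @x2) (@Prod.snd.{0, 0} _ _ @x2)) (@Cfsg.Agent.KO17e88ed.k13 @x0 @x1 @Cfsg.Agent.OrdDiv.fOPlus)) :: ((@Cfsg.Agent.KO17e88ed.k5.{0, 0} _ _ @(fun x2 => @Cfsg.Agent.OrdDiv.Grp.ominus (@Prod.fst.{0, 0} _ _ @x2) (@Prod.snd.{0, 0} _ _ @x2)) (@Cfsg.Agent.KO17e88ed.k13 @x0 @x1 @Cfsg.Agent.OrdDiv.fOMinus)) :: ((@Cfsg.Agent.KO17e88ed.k5.{0,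 0} _ _ @(fun x2 => @Cfsg.Agent.OrdDiv.Grp.g2 (@Prod.snd.{0, 0} _ _ @x2)) (@Cfsg.Agent.KO17e88ed.k13 @x0 @x1 @Cfsg.Agent.OrdDiv.fG2)) :: ((@Cfsg.Agent.KO17e88ed.k5.{0, 0} _ _ @(fun x2 => @Cfsg.Agent.OrdDiv.Grp.f4 (@Prod.snd.{0, 0} _ _ @x2)) (@Cfsg.Agent.KO17e88ed.k13 @x0 @x1 @Cfsg.Agent.OrdDiv.fF4)) :: ((@Cfsg.Agent.KO17e88ed.k5.{0, 0} _ _ @(fun x2 => @Cfsg.Agent.OrdDiv.Grp.e6 (@Prod.snd.{0, 0} _ _ @x2)) (@Cfsg.Agent.KO17e88ed.k13 @x0 @x1 @Cfsg.Agent.OrdDiv.fE6)) :: ((@Cfsg.Agent.KO17e88ed.k5.{0, 0} _ _ @(fun x2 => @Cfsg.Agent.OrdDiv.Grp.e7 (@Prod.snd.{0, 0} _ _ @x2)) (@Cfsg.Agent.KO17e88ed.k13 @x0 @x1 @Cfsg.Agent.OrdDiv.fE7)) :: ((@Cfsg.Agent.KO17e88ed.k5.{0, 0} _ _ @(fun x2 => @Cfsg.Agent.OrdDiv.Grp.e8 (@Prod.snd.{0, 0} _ _ @x2)) (@Cfsg.Agent.KO17e88ed.k13 @x0 @x1 @Cfsg.Agent.OrdDiv.fE8)) :: ((@Cfsg.Agent.KO17e88ed.k5.{0, 0} _ _ @(fun x2 => @Cfsg.Agent.OrdDiv.Grp.te6 (@Prod.snd.{0, 0} _ _ @x2)) (@Cfsg.Agent.KO17e88ed.k13 @x0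 @x1 @Cfsg.Agent.OrdDiv.fTE6)) :: ((@Cfsg.Agent.KO17e88ed.k5.{0, 0} _ _ @(fun x2 => @Cfsg.Agent.OrdDiv.Grp.td4 (@Prod.snd.{0, 0} _ _ @x2)) (@Cfsg.Agent.KO17e88ed.k13 @x0 @x1 @Cfsg.Agent.OrdDiv.fTD4)) :: ((@Cfsg.Agent.KO17e88ed.k5.{0, 0} _ _ @(fun x2 => @Cfsg.Agent.OrdDiv.Grp.sz (@Prod.snd.{0, 0} _ _ @x2)) (@Cfsg.Agent.KO17e88ed.k13 @x0 @x1 @Cfsg.Agent.OrdDiv.fSz)) :: ((@Cfsg.Agent.KO17e88ed.k5.{0, 0} _ _ @(fun x2 => @Cfsg.Agent.OrdDiv.Grp.ree (@Prod.snd.{0, 0} _ _ @x2)) (@Cfsg.Agent.KO17e88ed.k13 @x0 @x1 @Cfsg.Agent.OrdDiv.fRee)) :: ((@Cfsg.Agent.KO17e88ed.k5.{0, 0} _ _ @(fun x2 => @Cfsg.Agent.OrdDiv.Grp.tf4 (@Prod.snd.{0, 0} _ _ @x2)) (@Cfsg.Agent.KO17e88ed.k13 @x0 @x1 @Cfsg.Agent.OrdDiv.fTF4)) :: ((@Cfsg.Agent.KO17e88ed.k5.{0, 0} _ _ @(fun x2 => @Prod.fst.{0, 0} _ _ @x2) (@Cfsg.Agent.KO17e88ed.k7.{0} _ @(fun x2 => @Cfsg.Agent.KO17e88ed.k0.{1} @Bool (@Nat.mod @x1 (@Prod.snd.{0, 0} _ _ @x2)) (nat_lit 0) @Bool.false @Bool.true)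 @Cfsg.Agent.OrdDiv.spor)) :: [])))))))))))))))))))) ?_); rewrite [← Cfsg.Agent.KO17e88ed.e0.{1}, ← Cfsg.Agent.KO17e88ed.e7.{0}, ← Cfsg.Agent.KO17e88ed.e13, ← Cfsg.Agent.KO17e88ed.e11, ← Cfsg.Agent.KO17e88ed.e5.{0, 0}, ← Cfsg.Agent.KO17e88ed.e4.{0}]; (try delta Cfsg.Agent.OrdDiv.cands); (try generalize @Cfsg.Agent.OrdDiv.candAlt = g0); (try generalize @Cfsg.Agent.OrdDiv.cand = g1); (try generalize @Cfsg.Agent.OrdDiv.fPSL = g2); (try generalize @Cfsg.Agent.OrdDiv.fPSp = g3); (try generalize @Cfsg.Agent.OrdDiv.fPSU = g4); (try generalize @Cfsg.Agent.OrdDiv.fOOdd = g5); (try generalize @Cfsg.Agent.OrdDiv.fOPlus = g6); (try generalize @Cfsg.Agent.OrdDiv.fOMinus = g7); (try generalize @Cfsg.Agent.OrdDiv.fG2 = g8); (try generalize @Cfsg.Agent.OrdDiv.fF4 = g9); (try generalize @Cfsg.Agent.OrdDiv.fE6 = g10); (try generalize @Cfsg.Agent.OrdDiv.fE7 = g11); (try generalize @Cfsg.Agent.OrdDiv.fE8 = g12); (try generalize @Cfsg.Agent.OrdDiv.fTE6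 = g13); (try generalize @Cfsg.Agent.OrdDiv.fTD4 = g14); (try generalize @Cfsg.Agent.OrdDiv.fSz = g15); (try generalize @Cfsg.Agent.OrdDiv.fRee = g16); (try generalize @Cfsg.Agent.OrdDiv.fTF4 = g17); (try generalize @Cfsg.Agent.OrdDiv.spor = g18); rfl') | exact @Cfsg.Agent.OrdDiv.cands | exact ()
private theorem _root_.Cfsg.Agent.KO17e88ed.e14 : (by first | exact @Cfsg.Agent.OrdDiv.cands = @_root_.Cfsg.Agent.KO17e88ed.k14 | exact True : Prop) := by first | (delta _root_.Cfsg.Agent.KO17e88ed.k14; exact @Subtype.property _ (fun g => @Cfsg.Agent.OrdDiv.cands = @g) _) | rfl | trivial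
private noncomputable def _root_.Cfsg.Agent.KO17e88ed.k15.{ku0} : type_of% @List.find?.{ku0} := @(fun x0 x1 x2 => @List.rec.{(ku0+1), ku0} @x0 @(fun x3 => @Option.{ku0} @x0) (@Option.none.{ku0} _) @(fun x3 x4 x5 => @Bool.rec.{(ku0+1)} @(fun x6 => @Option.{ku0} @x0) @x5 (@Option.some.{ku0} _ @x3) (@x1 @x3)) @x2)
private theorem _root_.Cfsg.Agent.KO17e88ed.e15.{ku0} : @List.find?.{ku0} = @_root_.Cfsg.Agent.KO17e88ed.k15.{ku0} := by delta _root_.Cfsg.Agent.KO17e88ed.k15; funext a0 a1 a2; refine (_root_.Cfsg.Agent.KO17e88ed.e1 (fun a2 => @List.find?.{ku0} a0 a1 a2) ?_ (fun c0 c1 => ?_) a2 :) <;> (rfl')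
private noncomputable def _root_.Cfsg.Agent.KO17e88ed.k16 : (by first | exact type_of% @Cfsg.Agent.OrdDiv.ordN | exact Unit : Sort _) := by first | (refine @Subtype.val _ (fun g => @Cfsg.Agent.OrdDiv.ordN = @g) (@Subtype.mk _ _ (@(fun x0 => @Cfsg.Agent.OrdDiv.Grp.rec.{1} @(fun x1 => ((@Nat.hasNotBit (nat_lit 131071) (@Cfsg.Agent.OrdDiv.Grp.ctorIdx @x1)) → ℕ) → ℕ) @(fun x1 x2 => @Nat.div (@Cfsg.Agent.KO17e88ed.k9 @x1) (nat_lit 2)) @(fun x1 x2 x3 => @Nat.div (@Cfsg.Agent.OrdDiv.Fam.num @Cfsg.Agent.OrdDiv.fPSL @x1 @x2) (@Cfsg.Agent.OrdDiv.Fam.den @Cfsg.Agent.OrdDiv.fPSL @x1 @x2)) @(fun x1 x2 x3 => @Nat.div (@Cfsg.Agent.OrdDiv.Fam.num @Cfsg.Agent.OrdDiv.fPSp @x1 @x2) (@Cfsg.Agent.OrdDiv.Fam.den @Cfsg.Agent.OrdDiv.fPSp @x1 @x2)) @(fun x1 x2 x3 => @Nat.div (@Cfsg.Agent.OrdDiv.Fam.num @Cfsg.Agent.OrdDiv.fPSU @x1 @x2) (@Cfsg.Agent.OrdDiv.Fam.den @Cfsg.Agent.OrdDiv.fPSU @x1 @x2)) @(fun x1 x2 x3 => @Nat.div (@Cfsg.Agent.OrdDiv.Fam.num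 @Cfsg.Agent.OrdDiv.fOOdd @x1 @x2) (@Cfsg.Agent.OrdDiv.Fam.den @Cfsg.Agent.OrdDiv.fOOdd @x1 @x2)) @(fun x1 x2 x3 => @Nat.div (@Cfsg.Agent.OrdDiv.Fam.num @Cfsg.Agent.OrdDiv.fOPlus @x1 @x2) (@Cfsg.Agent.OrdDiv.Fam.den @Cfsg.Agent.OrdDiv.fOPlus @x1 @x2)) @(fun x1 x2 x3 => @Nat.div (@Cfsg.Agent.OrdDiv.Fam.num @Cfsg.Agent.OrdDiv.fOMinus @x1 @x2) (@Cfsg.Agent.OrdDiv.Fam.den @Cfsg.Agent.OrdDiv.fOMinus @x1 @x2)) @(fun x1 x2 => @Nat.div (@Cfsg.Agent.OrdDiv.Fam.num @Cfsg.Agent.OrdDiv.fG2 (nat_lit 0) @x1) (@Cfsg.Agent.OrdDiv.Fam.den @Cfsg.Agent.OrdDiv.fG2 (nat_lit 0) @x1)) @(fun x1 x2 => @Nat.div (@Cfsg.Agent.OrdDiv.Fam.num @Cfsg.Agent.OrdDiv.fF4 (nat_lit 0) @x1) (@Cfsg.Agent.OrdDiv.Fam.den @Cfsg.Agent.OrdDiv.fF4 (nat_lit 0) @x1)) @(fun x1 x2 => @Nat.div (@Cfsg.Agent.OrdDiv.Fam.num @Cfsg.Agent.OrdDiv.fE6 (nat_lit 0) @x1) (@Cfsg.Agent.OrdDiv.Fam.den @Cfsg.Agent.OrdDiv.fE6 (nat_lit 0) @x1)) @(fun x1 x2 => @Nat.div (@Cfsg.Agent.OrdDiv.Fam.num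 @Cfsg.Agent.OrdDiv.fE7 (nat_lit 0) @x1) (@Cfsg.Agent.OrdDiv.Fam.den @Cfsg.Agent.OrdDiv.fE7 (nat_lit 0) @x1)) @(fun x1 x2 => @Nat.div (@Cfsg.Agent.OrdDiv.Fam.num @Cfsg.Agent.OrdDiv.fE8 (nat_lit 0) @x1) (@Cfsg.Agent.OrdDiv.Fam.den @Cfsg.Agent.OrdDiv.fE8 (nat_lit 0) @x1)) @(fun x1 x2 => @Nat.div (@Cfsg.Agent.OrdDiv.Fam.num @Cfsg.Agent.OrdDiv.fTE6 (nat_lit 0) @x1) (@Cfsg.Agent.OrdDiv.Fam.den @Cfsg.Agent.OrdDiv.fTE6 (nat_lit 0) @x1)) @(fun x1 x2 => @Nat.div (@Cfsg.Agent.OrdDiv.Fam.num @Cfsg.Agent.OrdDiv.fTD4 (nat_lit 0) @x1) (@Cfsg.Agent.OrdDiv.Fam.den @Cfsg.Agent.OrdDiv.fTD4 (nat_lit 0) @x1)) @(fun x1 x2 => @Nat.div (@Cfsg.Agent.OrdDiv.Fam.num @Cfsg.Agent.OrdDiv.fSz (nat_lit 0) @x1) (@Cfsg.Agent.OrdDiv.Fam.den @Cfsg.Agent.OrdDiv.fSz (nat_lit 0) @x1)) @(fun x1 x2 => @Nat.div (@Cfsg.Agent.OrdDiv.Fam.num @Cfsg.Agent.OrdDiv.fRee (nat_lit 0) @x1) (@Cfsg.Agent.OrdDiv.Fam.den @Cfsg.Agent.OrdDiv.fRee (nat_lit 0) @x1)) @(fun x1 x2 => @Nat.div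 (@Cfsg.Agent.OrdDiv.Fam.num @Cfsg.Agent.OrdDiv.fTF4 (nat_lit 0) @x1) (@Cfsg.Agent.OrdDiv.Fam.den @Cfsg.Agent.OrdDiv.fTF4 (nat_lit 0) @x1)) @(fun x1 => @x1 (@Nat.ne_of_beq_eq_false _ _ (@Eq.refl.{1} _ @Bool.false))) @(fun x1 => @x1 (@Nat.ne_of_beq_eq_false _ _ (@Eq.refl.{1} _ @Bool.false))) @(fun x1 => @x1 (@Nat.ne_of_beq_eq_false _ _ (@Eq.refl.{1} _ @Bool.false))) @(fun x1 => @x1 (@Nat.ne_of_beq_eq_false _ _ (@Eq.refl.{1} _ @Bool.false))) @(fun x1 => @x1 (@Nat.ne_of_beq_eq_false _ _ (@Eq.refl.{1} _ @Bool.false))) @(fun x1 => @x1 (@Nat.ne_of_beq_eq_false _ _ (@Eq.refl.{1} _ @Bool.false))) @(fun x1 => @x1 (@Nat.ne_of_beq_eq_false _ _ (@Eq.refl.{1} _ @Bool.false))) @(fun x1 => @x1 (@Nat.ne_of_beq_eq_false _ _ (@Eq.refl.{1} _ @Bool.false))) @(fun x1 => @x1 (@Nat.ne_of_beq_eq_false _ _ (@Eq.refl.{1} _ @Bool.false))) @(fun x1 => @x1 (@Nat.ne_of_beq_eq_false _ _ (@Eq.refl.{1} _ @Bool.false))) @(fun x1 => @x1 (@Nat.ne_of_beq_eq_false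 _ _ (@Eq.refl.{1} _ @Bool.false))) @(fun x1 => @x1 (@Nat.ne_of_beq_eq_false _ _ (@Eq.refl.{1} _ @Bool.false))) @(fun x1 => @x1 (@Nat.ne_of_beq_eq_false _ _ (@Eq.refl.{1} _ @Bool.false))) @(fun x1 => @x1 (@Nat.ne_of_beq_eq_false _ _ (@Eq.refl.{1} _ @Bool.false))) @(fun x1 => @x1 (@Nat.ne_of_beq_eq_false _ _ (@Eq.refl.{1} _ @Bool.false))) @(fun x1 => @x1 (@Nat.ne_of_beq_eq_false _ _ (@Eq.refl.{1} _ @Bool.false))) @(fun x1 => @x1 (@Nat.ne_of_beq_eq_false _ _ (@Eq.refl.{1} _ @Bool.false))) @(fun x1 => @x1 (@Nat.ne_of_beq_eq_false _ _ (@Eq.refl.{1} _ @Bool.false))) @(fun x1 => @x1 (@Nat.ne_of_beq_eq_false _ _ (@Eq.refl.{1} _ @Bool.false))) @(fun x1 => @x1 (@Nat.ne_of_beq_eq_false _ _ (@Eq.refl.{1} _ @Bool.false))) @(fun x1 => @x1 (@Nat.ne_of_beq_eq_false _ _ (@Eq.refl.{1} _ @Bool.false))) @(fun x1 => @x1 (@Nat.ne_of_beq_eq_false _ _ (@Eq.refl.{1} _ @Bool.false))) @(fun x1 => @x1 (@Nat.ne_of_beq_eq_false _ _ (@Eq.refl.{1} _ @Bool.false)))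 @(fun x1 => @x1 (@Nat.ne_of_beq_eq_false _ _ (@Eq.refl.{1} _ @Bool.false))) @(fun x1 => @x1 (@Nat.ne_of_beq_eq_false _ _ (@Eq.refl.{1} _ @Bool.false))) @(fun x1 => @x1 (@Nat.ne_of_beq_eq_false _ _ (@Eq.refl.{1} _ @Bool.false))) @(fun x1 => @x1 (@Nat.ne_of_beq_eq_false _ _ (@Eq.refl.{1} _ @Bool.false))) @x0 @(fun x1 => @Option.rec.{1, 0} ℕ @(fun x2 => ℕ) (nat_lit 0) @(fun x2 => @x2) (@Option.rec.{1, 0} (@Cfsg.Agent.OrdDiv.Grp × ℕ) @(fun x2 => @Option.{0} ℕ) (@Option.none.{0} _) @(fun x2 => @Option.some.{0} _ (@Prod.snd.{0, 0} _ _ @x2)) (@Cfsg.Agent.KO17e88ed.k15.{0} _ @(fun x2 => @Decidable.rec.{1} _ @(fun x3 => @Bool) @(fun x3 => @Bool.false) @(fun x3 => @Bool.true) (@Cfsg.Agent.OrdDiv.instDecidableEqGrp.decEq (@Prod.fst.{0, 0} _ _ @x2) @x0)) @Cfsg.Agent.OrdDiv.spor))))) ?_); rewrite [← Cfsg.Agent.KO17e88ed.e15.{0}, ← Cfsg.Agent.KO17e88ed.e9]; (try delta Cfsg.Agent.OrdDiv.ordN Cfsg.Agent.OrdDiv.instDecidableEqGrp); (try generalize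 @Cfsg.Agent.OrdDiv.Grp.ctorIdx = g0); (try generalize @Cfsg.Agent.OrdDiv.fPSL = g1); (try generalize @Cfsg.Agent.OrdDiv.fPSp = g2); (try generalize @Cfsg.Agent.OrdDiv.fPSU = g3); (try generalize @Cfsg.Agent.OrdDiv.fOOdd = g4); (try generalize @Cfsg.Agent.OrdDiv.fOPlus = g5); (try generalize @Cfsg.Agent.OrdDiv.fOMinus = g6); (try generalize @Cfsg.Agent.OrdDiv.fG2 = g7); (try generalize @Cfsg.Agent.OrdDiv.fF4 = g8); (try generalize @Cfsg.Agent.OrdDiv.fE6 = g9); (try generalize @Cfsg.Agent.OrdDiv.fE7 = g10); (try generalize @Cfsg.Agent.OrdDiv.fE8 = g11); (try generalize @Cfsg.Agent.OrdDiv.fTE6 = g12); (try generalize @Cfsg.Agent.OrdDiv.fTD4 = g13); (try generalize @Cfsg.Agent.OrdDiv.fSz = g14); (try generalize @Cfsg.Agent.OrdDiv.fRee = g15); (try generalize @Cfsg.Agent.OrdDiv.fTF4 = g16); (try generalize @Cfsg.Agent.OrdDiv.instDecidableEqGrp.decEq = g17); (try generalize @Cfsg.Agent.OrdDiv.spor = g18); rfl') | exact @Cfsg.Agent.OrdDiv.ordN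 | exact ()
private theorem _root_.Cfsg.Agent.KO17e88ed.e16 : (by first | exact @Cfsg.Agent.OrdDiv.ordN = @_root_.Cfsg.Agent.KO17e88ed.k16 | exact True : Prop) := by first | (delta _root_.Cfsg.Agent.KO17e88ed.k16; exact @Subtype.property _ (fun g => @Cfsg.Agent.OrdDiv.ordN = @g) _) | rfl | trivial
private noncomputable def _root_.Cfsg.Agent.KO17e88ed.k17 : (by first | exact type_of% @Cfsg.Agent.H417.Engine.once | exact Unit : Sort _) := by first | (refine @Subtype.val _ (fun g => @Cfsg.Agent.H417.Engine.once = @g) (@Subtype.mk _ _ (@(fun x0 x1 => @Cfsg.Agent.KO17e88ed.k2.{0} _ (@Cfsg.Agent.KO17e88ed.k14 @x0 @x1) @(fun x2 => @Bool.rec.{1} @(fun x3 => @Bool) @Bool.true @Bool.false (@Cfsg.Agent.KO17e88ed.k0.{1} @Bool (@Nat.mod @x1 (@Nat.pow (@Cfsg.Agent.KO17e88ed.k16 @x2) (nat_lit 2))) (nat_lit 0) @Bool.false @Bool.true)))) ?_); rewrite [← Cfsg.Agent.KO17e88ed.e16, ← Cfsg.Agent.KO17e88ed.e0.{1}, ← Cfsg.Agent.KO17e88ed.e14, ← Cfsg.Agent.KO17e88ed.e2.{0}];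 (try delta Cfsg.Agent.H417.Engine.once); (try generalize @Cfsg.Agent.OrdDiv.cands = g0); (try generalize @Cfsg.Agent.OrdDiv.ordN = g1); rfl') | exact @Cfsg.Agent.H417.Engine.once | exact ()
private theorem _root_.Cfsg.Agent.KO17e88ed.e17 : (by first | exact @Cfsg.Agent.H417.Engine.once = @_root_.Cfsg.Agent.KO17e88ed.k17 | exact True : Prop) := by first | (delta _root_.Cfsg.Agent.KO17e88ed.k17; exact @Subtype.property _ (fun g => @Cfsg.Agent.H417.Engine.once = @g) _) | rfl | trivial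

theorem once_N : once lN NJ = true := by (first | (rewrite [Cfsg.Agent.KO17e88ed.e17]; decide +kernel) | decide +kernel)
theorem once_U : once lU nU = true := by (first | (rewrite [Cfsg.Agent.KO17e88ed.e17]; decide +kernel) | decide +kernel)
theorem once_L : once lL nL = true := by (first | (rewrite [Cfsg.Agent.KO17e88ed.e17]; decide +kernel) | decide +kernel)
theorem once_L1 : once lL1 nL1 = true := by (first | (rewrite [Cfsg.Agent.KO17e88ed.e17]; decide +kernel) | decide +kernel)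
theorem once_L2 : once lL2 nL2 = true := by (first | (rewrite [Cfsg.Agent.KO17e88ed.e17]; decide +kernel) | decide +kernel)

section aut

variable {S : Type u} [Group S]

theorem aut_psl {q p f : ℕ} [Fact p.Prime] (hf : 1 ≤ f) (hq : q = p ^ f) (h4 : 4 ≤ q) (hr : Real (.psl 2 q) S) :
    Nat.card (MulAut S) = f * (q * (q ^ 2 - 1)) := by
  obtain ⟨F, _, _, hF, ⟨e⟩⟩ := hr
  rw [Nat.card_congr (MulAut.congr e).toEquiv, S0813.result (F := F) p f hf (hF.trans hq) 2 le_rfl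
    (fun _ => by rw [← hq]; exact h4), if_pos rfl, one_mul]
  rw [ClassicalGeometry.PSL2Basic.card_PGL2, hF]

theorem aut_psu (hr : Real (.psu 3 11) S) : Nat.card (MulAut S) = 6 * Nat.card S := by
  obtain ⟨F, _, _, hF, ⟨e⟩⟩ := hr
  have : Fact (Nat.Prime 11) := ⟨by norm_num⟩
  rw [Nat.card_congr (MulAut.congr e).toEquiv, Nat.card_congr e.toEquiv,
    S0815.result (F := F) 11 1 le_rfl (q := 11) (by norm_num) hF 3 le_rfl (by norm_num)]
  norm_num

end aut

variable {G : Type u} [Group G] [Finite G]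

/-- divisibility of the order of the centralizer -/
theorem card_dvd {X : Subgroup G} (hX : X.Normal) {n m k : ℕ} (hd : Nat.card G ∣ n)
    (hk : Nat.card (X ⧸ center X) = k) (hn : n = k * m) (hk0 : 0 < k) :
    Nat.card (centralizer (X : Set G)) ∣ m := by
  have h1 := (card_mul_dvd X).trans hd
  rw [hk, hn] at h1
  exact Nat.dvd_of_mul_dvd_mul_left hk0 h1

private noncomputable def _root_.Cfsg.Agent.KO17e88ed.k18 : type_of% @Decidable.decide := @(fun x0 x1 => @Decidable.rec.{1} _ @(fun x2 => @Bool) @(fun x2 => @Bool.false) @(fun x2 => @Bool.true) @x1)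
private theorem _root_.Cfsg.Agent.KO17e88ed.e18 : @Decidable.decide = @_root_.Cfsg.Agent.KO17e88ed.k18 := by delta _root_.Cfsg.Agent.KO17e88ed.k18; rfl'
private noncomputable def _root_.Cfsg.Agent.KO17e88ed.k19.{ku0} : type_of% @List.instDecidableEqNil.{ku0} := @(fun x0 x1 => @List.rec.{1, ku0} @x0 @(fun x2 => @Decidable (@Eq.{(ku0+1)} _ @x2 [])) (@Decidable.isTrue _ (@List.hasDecEq._proof_1.{ku0} _)) @(fun x2 x3 x4 => @Decidable.isFalse _ (@List.hasDecEq._proof_2.{ku0} _ @x2 @x3)) @x1)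
private theorem _root_.Cfsg.Agent.KO17e88ed.e19.{ku0} : @List.instDecidableEqNil.{ku0} = @_root_.Cfsg.Agent.KO17e88ed.k19.{ku0} := by delta _root_.Cfsg.Agent.KO17e88ed.k19; rfl'
private noncomputable def _root_.Cfsg.Agent.KO17e88ed.k20 : (by first | exact type_of% @Cfsg.Agent.H417.Engine.noPow | exact Unit : Sort _) := by first | (refine @Subtype.val _ (fun g => @Cfsg.Agent.H417.Engine.noPow = @g) (@Subtype.mk _ _ (@(fun x0 x1 x2 => @Cfsg.Agent.KO17e88ed.k2.{0} _ @x0 @(fun x3 => @Bool.rec.{1} @(fun x4 => @Bool) (@Cfsg.Agent.KO17e88ed.k2.{0} _ (@Cfsg.Agent.KO17e88ed.k10 (@Prod.snd.{0, 0} _ _ @x3) []) @(fun x4 => @Bool.rec.{1} @(fun x5 => @Bool) (@Bool.rec.{1} @(fun x5 => @Bool) @Bool.true @Bool.false (@Cfsg.Agent.KO17e88ed.k0.{1} @Bool (@Nat.mod @x2 (@Nat.pow (@Prod.fst.{0, 0} _ _ @x3) (@Nat.add @x4 (nat_lit 1)))) (nat_lit 0) @Bool.false @Bool.true)) @Bool.true (@Bool.rec.{1} @(fun x5 => @Bool) @Bool.true @Bool.false (@Cfsg.Agent.KO17e88ed.k0.{1}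 @Bool (@Nat.mod (@Nat.pow (@Prod.fst.{0, 0} _ _ @x3) (@Nat.add @x4 (nat_lit 1))) @x1) (nat_lit 1) @Bool.false @Bool.true)))) @Bool.true (@Cfsg.Agent.KO17e88ed.k0.{1} @Bool (@Prod.fst.{0, 0} _ _ @x3) @x1 @Bool.false @Bool.true)))) ?_); rewrite [← Cfsg.Agent.KO17e88ed.e0.{1}, ← Cfsg.Agent.KO17e88ed.e10, ← Cfsg.Agent.KO17e88ed.e2.{0}]; rfl') | exact @Cfsg.Agent.H417.Engine.noPow | exact ()
private theorem _root_.Cfsg.Agent.KO17e88ed.e20 : (by first | exact @Cfsg.Agent.H417.Engine.noPow = @_root_.Cfsg.Agent.KO17e88ed.k20 | exact True : Prop) := by first | (delta _root_.Cfsg.Agent.KO17e88ed.k20; exact @Subtype.property _ (fun g => @Cfsg.Agent.H417.Engine.noPow = @g) _) | rfl | trivial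
private noncomputable def _root_.Cfsg.Agent.KO17e88ed.k21 : (by first | exact type_of% @Cfsg.Agent.H417.Engine.bad | exact Unit : Sort _) := by first | (refine @Subtype.val _ (fun g => @Cfsg.Agent.H417.Engine.bad = @g) (@Subtype.mk _ _ (@(fun x0 x1 x2 => @Cfsg.Agent.KO17e88ed.k7.{0} _ @(fun x3 => @Bool.rec.{1} @(fun x4 => @Bool) @Bool.true @Bool.false (@Bool.rec.{1} @(fun x4 => @Bool) @Bool.false (@Cfsg.Agent.KO17e88ed.k20 @x0 @x2 (@Cfsg.Agent.KO17e88ed.k16 @x3)) (@Bool.rec.{1} @(fun x4 => @Bool) @Bool.true @Bool.false (@Cfsg.Agent.KO17e88ed.k0.{1} @Bool (@Nat.mod (@Cfsg.Agent.KO17e88ed.k16 @x3) @x2) (nat_lit 0) @Bool.false @Bool.true)))) (@Cfsg.Agent.KO17e88ed.k14 @x0 @x1))) ?_); rewrite [← Cfsg.Agent.KO17e88ed.e14, ← Cfsg.Agent.KO17e88ed.e0.{1}, ← Cfsg.Agent.KO17e88ed.e16, ← Cfsg.Agent.KO17e88ed.e20, ← Cfsg.Agent.KO17e88ed.e7.{0}]; (try delta Cfsg.Agent.H417.Engine.bad); (try generalize @Cfsg.Agent.H417.Engine.noPow = g0);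 (try generalize @Cfsg.Agent.OrdDiv.ordN = g1); (try generalize @Cfsg.Agent.OrdDiv.cands = g2); rfl') | exact @Cfsg.Agent.H417.Engine.bad | exact ()
private theorem _root_.Cfsg.Agent.KO17e88ed.e21 : (by first | exact @Cfsg.Agent.H417.Engine.bad = @_root_.Cfsg.Agent.KO17e88ed.k21 | exact True : Prop) := by first | (delta _root_.Cfsg.Agent.KO17e88ed.k21; exact @Subtype.property _ (fun g => @Cfsg.Agent.H417.Engine.bad = @g) _) | rfl | trivial

/-- **`U₃(11)`**, the centralizer: no characters of degree divisible by `31`, `43` -/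
theorem false_U (T : OrderTable.{u}) (hK : ∀ (K : Type u) [Group K] [Finite K] [IsSimpleGroup K],
    IsKnownSimple' K) (hd : Nat.card G ∣ nU) (h43 : 43 ∣ Nat.card G) (h31 : 31 ∣ Nat.card G)
    (hP : ∀ P : Sylow 43 G, ¬ (P : Subgroup G).Normal) (hQ : ∀ P : Sylow 31 G, ¬ (P : Subgroup G).Normal) : False :=
  pair_false T hK valid_U once_U (by decide +kernel) (by decide +kernel) (by (first | (refine of_decide_eq_true ?_; rewrite [Cfsg.Agent.KO17e88ed.e18, Cfsg.Agent.KO17e88ed.e19.{0}, Cfsg.Agent.KO17e88ed.e21]; decide +kernel) | decide +kernel)) (by (first | (refine of_decide_eq_true ?_; rewrite [Cfsg.Agent.KO17e88ed.e18, Cfsg.Agent.KO17e88ed.e19.{0}, Cfsg.Agent.KO17e88ed.e21]; decide +kernel) | decide +kernel)) hd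
    (by decide +kernel) (by decide +kernel) (by decide +kernel) h43 h31 hP hQ

theorem sylow_card {p n : ℕ} [hp : Fact p.Prime] (hd : Nat.card G ∣ n) (hn : ¬ p ^ 2 ∣ n) (h : p ∣ Nat.card G)
    (P : Sylow p G) : Nat.card P = p := CommPQ.card_sylow h (fun h' => hn (h'.trans hd)) P

theorem not_normal' {p n : ℕ} [hp : Fact p.Prime] (hdn : Nat.card G ∣ n) (hn : ¬ p ^ 2 ∣ n) {d : ℕ}
    (hd : d ∈ charDegrees G) (hpd : p ∣ d) (P : Sylow p G) : ¬ (P : Subgroup G).Normal :=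
  not_normal hd hpd P (sylow_card hdn hn (hpd.trans (H424.DegTools.dvd_card hd)) P)

theorem case_D (T : OrderTable.{u}) (hK : ∀ (K : Type u) [Group K] [Finite K] [IsSimpleGroup K],
    IsKnownSimple' K) (hN : Nat.card G = NJ) {L : Subgroup G} (hL : QS G 37 L) (hr : Real (.psu 3 11) (L ⧸ center L))
    (ho : Nat.card (L ⧸ center L) = 70915680) {d : ℕ} (hd : d ∈ charDegrees G) (hdd : 31 * 43 ∣ d) : False := by
  have hLn := hL.normal
  have hC : Nat.card (centralizer (L : Set G)) ∣ nU := card_dvd hLn (hN.dvd) ho (by decide +kernel) (by norm_num)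
  have hA : (centralizer (L : Set G)).index ∣ 6 * 70915680 := by
    rw [← ho, ← aut_psu hr]
    exact index_dvd L hL.perf
  obtain ⟨c, hc, hc1, -⟩ := exists_degree L hd hdd (Nat.Coprime.coprime_dvd_right hA (by norm_num))
  have h1 : 31 ∣ c := (dvd_mul_right 31 43).trans hc1
  have h2 : 43 ∣ c := (dvd_mul_left 43 31).trans hc1
  exact false_U T hK hC (h2.trans (H424.DegTools.dvd_card hc)) (h1.trans (H424.DegTools.dvd_card hc))
    (not_normal' hC (by decide +kernel) hc h2) (not_normal' hC (by decide +kernel) hc h1)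

/-- **`L₂(32)`** -/
theorem case_L32 (T : OrderTable.{u}) (hK : ∀ (K : Type u) [Group K] [Finite K] [IsSimpleGroup K],
    IsKnownSimple' K) (hN : Nat.card G ∣ nL1) {L : Subgroup G} (hLn : L.Normal) (hp : commutator L = ⊤)
    (hr : Real (.psl 2 32) (L ⧸ center L))
    (ho : Nat.card (L ⧸ center L) = 32736) {d : ℕ} (hd : d ∈ charDegrees G) (hdd : 43 ∣ d) : False := by
  have f2 : Fact (Nat.Prime 2) := ⟨Nat.prime_two⟩
  have hC : Nat.card (centralizer (L : Set G)) ∣ nL2 := card_dvd hLn hN ho (by decide +kernel) (by norm_num)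
  have hA : (centralizer (L : Set G)).index ∣ 5 * (32 * (32 ^ 2 - 1)) := by
    rw [← aut_psl (p := 2) (f := 5) (by norm_num) (by norm_num) (by norm_num) hr]
    exact index_dvd L hp
  obtain ⟨c, hc, hc1, -⟩ := exists_degree L hd hdd (Nat.Coprime.coprime_dvd_right hA (by norm_num))
  have h43 : 43 ∣ Nat.card (centralizer (L : Set G)) := hc1.trans (H424.DegTools.dvd_card hc)
  obtain ⟨P⟩ : Nonempty (Sylow 43 (centralizer (L : Set G))) := inferInstance
  obtain ⟨X, hX, hXc, h⟩ := engine T hK valid_L2 once_L2 hC P (sylow_card hC (by decide +kernel) h43 P)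
    (not_normal' hC (by decide +kernel) hc hc1 P)
  rcases h with ⟨r, hr1, hrp, hXr, j, hj, hjd, hj1⟩ | ⟨-, -, -, g, hg, -⟩
  · exact nonePow_of valid_L2 (by decide +kernel) hr1 hrp hj (hjd.trans hC) hj1
  · rw [show bad lL2 nL2 43 = [] by (first | (refine of_decide_eq_true ?_; rewrite [Cfsg.Agent.KO17e88ed.e18, Cfsg.Agent.KO17e88ed.e19.{0}, Cfsg.Agent.KO17e88ed.e21]; decide +kernel) | decide +kernel)] at hg
    exact List.not_mem_nil hg

private noncomputable def _root_.Cfsg.Agent.KO17e88ed.k23.{ku0} : type_of% @List.hasDecEq.{ku0} := @(fun x0 x1 x2 x3 => @List.rec.{(ku0+1), ku0} @x0 @(fun x4 => (x5 : @List.{ku0} @x0) → @Decidable (@Eq.{(ku0+1)} _ @x4 @x5)) @(fun x4 => @List.rec.{1, ku0} @x0 @(fun x5 => @Decidable (@Eq.{(ku0+1)} _ [] @x5)) (@Decidable.isTrue _ (@List.hasDecEq._proof_1.{ku0} _)) @(fun x5 x6 x7 => @Decidable.isFalse _ (@List.hasDecEq._proof_3.{ku0} _ @x5 @x6)) @x4) @(fun x4 x5 x6 x7 => @List.rec.{1, ku0} @x0 @(fun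 x8 => @Decidable (@Eq.{(ku0+1)} _ (@x4 :: @x5) @x8)) (@Decidable.isFalse _ (@List.hasDecEq._proof_2.{ku0} _ @x4 @x5)) @(fun x8 x9 x10 => @Decidable.rec.{1} _ @(fun x11 => @Decidable (@Eq.{(ku0+1)} _ (@x4 :: @x5) (@x8 :: @x9))) @(fun x11 => @Decidable.isFalse _ (@List.hasDecEq._proof_6.{ku0} _ @x4 @x5 @x8 @x9 @x11)) @(fun x11 => @Decidable.rec.{1} _ @(fun x12 => @Decidable (@Eq.{(ku0+1)} _ (@x4 :: @x5) (@x8 :: @x9))) @(fun x12 => @Decidable.isFalse _ (@List.hasDecEq._proof_5.{ku0} _ @x4 @x5 @x8 @x9 @x12)) @(fun x12 => @Decidable.isTrue _ (@List.hasDecEq._proof_4.{ku0} _ @x4 @x5 @x8 @x9 @x11 @x12)) (@x6 @x9)) (@x1 @x4 @x8)) @x7) @x2 @x3)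
private theorem _root_.Cfsg.Agent.KO17e88ed.e23.{ku0} : @List.hasDecEq.{ku0} = @_root_.Cfsg.Agent.KO17e88ed.k23.{ku0} := by delta _root_.Cfsg.Agent.KO17e88ed.k23; funext a0 a1 a2 a3; refine (congrFun (_root_.Cfsg.Agent.KO17e88ed.e1 (fun a2 a3 => @List.hasDecEq.{ku0} a0 a1 a2 a3) ?_ (fun c0 c1 => ?_) a2) a3 :) <;> [(funext b0; (cases b0 with | @nil  => (rfl') | @cons b0_0 b0_1 => (rfl'))); (funext b0; (cases b0 with | @nil  => (rfl') | @cons b0_0 b0_1 => (rfl')))]
private noncomputable def _root_.Cfsg.Agent.KO17e88ed.k24.{ku0} : type_of% @instDecidableEqList.{ku0} := @(fun x0 x1 x2 x3 => @List.rec.{1, ku0} @x0 @(fun x4 => @Decidable (@Eq.{(ku0+1)} _ @x4 @x3)) (@List.rec.{1, ku0} @x0 @(fun x4 => @Decidable (@Eq.{(ku0+1)} _ [] @x4)) (@Decidable.isTrue _ (@List.hasDecEq._proof_1.{ku0} _)) @(fun x4 x5 x6 => @Decidable.isFalse _ (@List.hasDecEq._proof_3.{ku0} _ @x4 @x5)) @x3) @(fun x4 x5 x6 => @List.rec.{1, ku0} @x0 @(fun x7 => @Decidable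 (@Eq.{(ku0+1)} _ (@x4 :: @x5) @x7)) (@Decidable.isFalse _ (@List.hasDecEq._proof_2.{ku0} _ @x4 @x5)) @(fun x7 x8 x9 => @Decidable.rec.{1} _ @(fun x10 => @Decidable (@Eq.{(ku0+1)} _ (@x4 :: @x5) (@x7 :: @x8))) @(fun x10 => @Decidable.isFalse _ (@List.hasDecEq._proof_6.{ku0} _ @x4 @x5 @x7 @x8 @x10)) @(fun x10 => @Decidable.rec.{1} _ @(fun x11 => @Decidable (@Eq.{(ku0+1)} _ (@x4 :: @x5) (@x7 :: @x8))) @(fun x11 => @Decidable.isFalse _ (@List.hasDecEq._proof_5.{ku0} _ @x4 @x5 @x7 @x8 @x11)) @(fun x11 => @Decidable.isTrue _ (@List.hasDecEq._proof_4.{ku0} _ @x4 @x5 @x7 @x8 @x10 @x11)) (@Cfsg.Agent.KO17e88ed.k23.{ku0} _ @x1 @x5 @x8)) (@x1 @x4 @x7)) @x3) @x2)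
private theorem _root_.Cfsg.Agent.KO17e88ed.e24.{ku0} : @instDecidableEqList.{ku0} = @_root_.Cfsg.Agent.KO17e88ed.k24.{ku0} := by delta _root_.Cfsg.Agent.KO17e88ed.k24; rewrite [← Cfsg.Agent.KO17e88ed.e23.{ku0}]; rfl'

/-- **`L₂(23)`** -/
theorem case_L23 (T : OrderTable.{u}) (hK : ∀ (K : Type u) [Group K] [Finite K] [IsSimpleGroup K],
    IsKnownSimple' K) (hN : Nat.card G ∣ nL) {L : Subgroup G} (hLn : L.Normal) (hp : commutator L = ⊤)
    (hr : Real (.psl 2 23) (L ⧸ center L))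
    (ho : Nat.card (L ⧸ center L) = 6072) {d : ℕ} (hd : d ∈ charDegrees G) (hdd : 31 * 43 ∣ d) : False := by
  have hC : Nat.card (centralizer (L : Set G)) ∣ nL1 := card_dvd hLn hN ho (by decide +kernel) (by norm_num)
  have hA : (centralizer (L : Set G)).index ∣ 1 * (23 * (23 ^ 2 - 1)) := by
    rw [← aut_psl (p := 23) (f := 1) (by norm_num) (by norm_num) (by norm_num) hr]
    exact index_dvd L hp
  obtain ⟨c, hc, hc1, -⟩ := exists_degree L hd hdd (Nat.Coprime.coprime_dvd_right hA (by norm_num))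
  have d31 : 31 ∣ c := (dvd_mul_right 31 43).trans hc1
  have d43 : 43 ∣ c := (dvd_mul_left 43 31).trans hc1
  have h43 : 43 ∣ Nat.card (centralizer (L : Set G)) := d43.trans (H424.DegTools.dvd_card hc)
  have h31 : 31 ∣ Nat.card (centralizer (L : Set G)) := d31.trans (H424.DegTools.dvd_card hc)
  obtain ⟨y, x, hy, hx, hyx⟩ := exists_com (p := 31) (q := 43) T hK valid_L1 (by (first | (refine of_decide_eq_true ?_; rewrite [Cfsg.Agent.KO17e88ed.e18, Cfsg.Agent.KO17e88ed.e19.{0}, Cfsg.Agent.KO17e88ed.e21]; decide +kernel) | decide +kernel)) (by norm_num)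
    (by norm_num) (by norm_num) hC h31 h43 (by decide +kernel) (by decide +kernel)
  obtain ⟨P, hPx, hPc⟩ := sylow_of hx (fun h => absurd (h.trans hC) (by decide +kernel))
  obtain ⟨Q, hQy, hQc⟩ := sylow_of hy (fun h => absurd (h.trans hC) (by decide +kernel))
  obtain ⟨X, hX, hXc, h1⟩ := engine_two T hK valid_L1 once_L1 (by decide +kernel) hC P hPc
    (not_normal' hC (by decide +kernel) hc d43 P)
  obtain ⟨Y, hY, hYc, h2⟩ := engine_two T hK valid_L1 once_L1 (by decide +kernel) hC Q hQc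
    (not_normal' hC (by decide +kernel) hc d31 Q)
  rw [hPx] at hXc
  rw [hQy] at hYc
  rcases h1 with h1 | ⟨-, -, -, g, hg, -⟩
  · rcases h2 with h2 | ⟨hYp, -, -, g, hg, hgr, hgo, -⟩
    · exact absurd ((dvd_of_pair hx hy hyx.symm X Y hX hY h1 h2 hXc hYc).trans hC) (by decide +kernel)
    · rw [show bad lL1 nL1 31 = [.psl 2 32] by (first | (refine of_decide_eq_true ?_; rewrite [Cfsg.Agent.KO17e88ed.e18, Cfsg.Agent.KO17e88ed.e24.{0}, Cfsg.Agent.KO17e88ed.e21]; decide +kernel) | decide +kernel), List.mem_singleton] at hg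
      subst hg
      exact case_L32 T hK hC hY hYp hgr (by rw [hgo]; decide +kernel) hc d43
  · rw [show bad lL1 nL1 43 = [] by (first | (refine of_decide_eq_true ?_; rewrite [Cfsg.Agent.KO17e88ed.e18, Cfsg.Agent.KO17e88ed.e19.{0}, Cfsg.Agent.KO17e88ed.e21]; decide +kernel) | decide +kernel)] at hg
    exact List.not_mem_nil hg

/-- **`L₂(29)`**, the centralizer -/
theorem false_L (T : OrderTable.{u}) (hK : ∀ (K : Type u) [Group K] [Finite K] [IsSimpleGroup K],
    IsKnownSimple' K) (hN : Nat.card G ∣ nL) {d : ℕ} (hd : d ∈ charDegrees G) (hdd : 23 * (31 * 43) ∣ d) : False := by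
  have d23 : 23 ∣ d := (dvd_mul_right _ _).trans hdd
  have d31 : 31 ∣ d := ((dvd_mul_right 31 43).trans (dvd_mul_left _ _)).trans hdd
  have d43 : 43 ∣ d := ((dvd_mul_left 43 31).trans (dvd_mul_left _ _)).trans hdd
  have h43 := d43.trans (H424.DegTools.dvd_card hd)
  have h23 := d23.trans (H424.DegTools.dvd_card hd)
  obtain ⟨y, x, hy, hx, hyx⟩ := exists_com (p := 23) (q := 43) T hK valid_L (by (first | (refine of_decide_eq_true ?_; rewrite [Cfsg.Agent.KO17e88ed.e18, Cfsg.Agent.KO17e88ed.e19.{0}, Cfsg.Agent.KO17e88ed.e21]; decide +kernel) | decide +kernel)) (by norm_num)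
    (by norm_num) (by norm_num) hN h23 h43 (by decide +kernel) (by decide +kernel)
  obtain ⟨P, hPx, hPc⟩ := sylow_of hx (fun h => absurd (h.trans hN) (by decide +kernel))
  obtain ⟨Q, hQy, hQc⟩ := sylow_of hy (fun h => absurd (h.trans hN) (by decide +kernel))
  obtain ⟨X, hX, hXc, h1⟩ := engine_two T hK valid_L once_L (by decide +kernel) hN P hPc
    (not_normal' hN (by decide +kernel) hd d43 P)
  obtain ⟨Y, hY, hYc, h2⟩ := engine_two T hK valid_L once_L (by decide +kernel) hN Q hQc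
    (not_normal' hN (by decide +kernel) hd d23 Q)
  rw [hPx] at hXc
  rw [hQy] at hYc
  rcases h1 with h1 | ⟨-, -, -, g, hg, -⟩
  · rcases h2 with h2 | ⟨hYp, -, -, g, hg, hgr, hgo, -⟩
    · exact absurd ((dvd_of_pair' hx hy hyx.symm X Y hX hY h1 h2 hXc hYc).trans hN) (by decide +kernel)
    · rw [show bad lL nL 23 = [.psl 2 23] by (first | (refine of_decide_eq_true ?_; rewrite [Cfsg.Agent.KO17e88ed.e18, Cfsg.Agent.KO17e88ed.e24.{0}, Cfsg.Agent.KO17e88ed.e21]; decide +kernel) | decide +kernel), List.mem_singleton] at hg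
      subst hg
      exact case_L23 T hK hN hY hYp hgr (by rw [hgo]; decide +kernel) hd ((dvd_mul_left _ _).trans hdd)
  · rw [show bad lL nL 43 = [] by (first | (refine of_decide_eq_true ?_; rewrite [Cfsg.Agent.KO17e88ed.e18, Cfsg.Agent.KO17e88ed.e19.{0}, Cfsg.Agent.KO17e88ed.e21]; decide +kernel) | decide +kernel)] at hg
    exact List.not_mem_nil hg

theorem case_C (T : OrderTable.{u}) (hK : ∀ (K : Type u) [Group K] [Finite K] [IsSimpleGroup K],
    IsKnownSimple' K) (hN : Nat.card G = NJ) {L : Subgroup G} (hL : QS G 29 L) (hr : Real (.psl 2 29) (L ⧸ center L))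
    (ho : Nat.card (L ⧸ center L) = 12180) {d : ℕ} (hd : d ∈ charDegrees G) (hdd : 23 * (31 * 43) ∣ d) : False := by
  have hLn := hL.normal
  have hC : Nat.card (centralizer (L : Set G)) ∣ nL := card_dvd hLn (hN.dvd) ho (by decide +kernel) (by norm_num)
  have hA : (centralizer (L : Set G)).index ∣ 1 * (29 * (29 ^ 2 - 1)) := by
    rw [← aut_psl (p := 29) (f := 1) (by norm_num) (by norm_num) (by norm_num) hr]
    exact index_dvd L hL.perf
  obtain ⟨c, hc, hc1, -⟩ := exists_degree L hd hdd (Nat.Coprime.coprime_dvd_right hA (by norm_num))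
  exact false_L T hK hC hc hc1

end Cfsg.Agent.H417.JFourCase
end

-- part: H417/JFourCaseE
section
/-!
# Groups of the order of `J₄` : two more cases (helper417)
-/

set_option autoImplicit false

namespace Cfsg.Agent.H417.JFourCaseE

open Subgroup Cfsg Cfsg.Agent.OrdDiv
open Cfsg.Agent.H424.DegTools
open Cfsg.Agent.H417.DegQuasi Cfsg.Agent.H417.QSTools Cfsg.Agent.H417.Tricho Cfsg.Agent.H417.Engine
open Cfsg.Agent.H417.CommPQ Cfsg.Agent.H417.TwoNum Cfsg.Agent.H417.CentQS Cfsg.Agent.H417.PairPQ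
open Cfsg.Agent.H417.JFourCase

universe u

variable {G : Type u} [Group G] [Finite G]

theorem case_A (hN : Nat.card G = NJ) {L M : Subgroup G} (hL : QS G 29 L) (hr : Real (.psl 2 29) (L ⧸ center L))
    (ho : Nat.card (L ⧸ center L) = 12180) (hM : QS G 37 M) (ho' : Nat.card (M ⧸ center M) = 70915680) : False := by
  have hLn := hL.normal
  have hC : Nat.card (centralizer (L : Set G)) ∣ nL := card_dvd hLn (hN.dvd) ho (by decide +kernel) (by norm_num)
  have hA : (centralizer (L : Set G)).index ∣ 1 * (29 * (29 ^ 2 - 1)) := by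
    rw [← aut_psl (p := 29) (f := 1) (by norm_num) (by norm_num) (by norm_num) hr]
    exact index_dvd L hL.perf
  have h37 : 37 ∣ Nat.card (centralizer (L : Set G)) := by
    have h1 := (centralizer (L : Set G)).card_mul_index
    have h2 : 37 ∣ Nat.card (centralizer (L : Set G)) * (centralizer (L : Set G)).index := by
      rw [h1, hN]; decide +kernel
    rcases (Nat.Prime.dvd_mul (by norm_num)).1 h2 with h3 | h3
    · exact h3
    · exact absurd (h3.trans hA) (by norm_num)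
  have h1 := hM.le _ inferInstance h37
  have h2 : 70915680 ∣ nL := by
    rw [← ho']
    exact (card_quotient_dvd_card _).trans ((card_dvd_of_le h1).trans hC)
  revert h2
  decide +kernel

theorem index_inf_dvd (A B : Subgroup G) [A.Normal] [B.Normal] : (A ⊓ B).index ∣ A.index * B.index := by
  have h1 : (A ⊓ B).relIndex A * A.index = (A ⊓ B).index := relIndex_mul_index inf_le_left
  rw [inf_relIndex_left] at h1
  rw [← h1, mul_comm A.index]
  exact Nat.mul_dvd_mul (relIndex_dvd_index_of_normal _ _) dvd_rfl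

/-- the centralizer of a normal subgroup of prime order -/
theorem index_centralizer_dvd {p : ℕ} (hp : p.Prime) (A : Subgroup G) [A.Normal] (hA : Nat.card A = p) :
    (centralizer (A : Set G)).index ∣ p - 1 := by
  have := Fact.mk hp
  have hcyc : IsCyclic A := isCyclic_of_prime_card hA
  let f : G →* MulAut A := MulAut.conjNormal
  have hk : f.ker ≤ centralizer (A : Set G) := by
    intro g hg
    rw [mem_centralizer_iff]
    intro a ha
    have h1 := congrArg (fun φ : MulAut A => ((φ ⟨a, ha⟩ : A) : G)) (MonoidHom.mem_ker.1 hg)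
    have h2 : g * a * g⁻¹ = a := by simpa [f] using h1
    calc a * g = g * a * g⁻¹ * g := by rw [h2]
      _ = g * a := by group
  have h4 : Nat.card (MulAut A) = p - 1 := by
    rw [IsCyclic.card_mulAut, hA, Nat.totient_prime hp]
  rw [← h4]
  refine (index_dvd_of_le hk).trans ?_
  rw [Subgroup.index_ker]
  exact card_subgroup_dvd_card _

theorem comm_of_prime {p : ℕ} (hp : p.Prime) (A : Subgroup G) (hA : Nat.card A = p) : A ≤ centralizer (A : Set G) := by
  have := Fact.mk hp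
  have hcyc : IsCyclic A := isCyclic_of_prime_card hA
  intro a ha
  rw [mem_centralizer_iff]
  intro b hb
  exact congrArg Subtype.val ((IsCyclic.isMulCommutative (α := A)).is_comm.comm ⟨b, hb⟩ ⟨a, ha⟩)

/-- normal subgroups of coprime orders commute -/
theorem comm_of_coprime (A B : Subgroup G) [A.Normal] [B.Normal] (h : (Nat.card A).Coprime (Nat.card B)) :
    A ≤ centralizer (B : Set G) := by
  rw [← commutator_eq_bot_iff_le_centralizer, eq_bot_iff]
  refine (commutator_le_inf A B).trans ?_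
  rw [inf_eq_bot_of_coprime h]

theorem case_E (T : OrderTable.{u}) (hK : ∀ (K : Type u) [Group K] [Finite K] [IsSimpleGroup K],
    IsKnownSimple' K) (hN : Nat.card G = NJ) {L : Subgroup G} (hL : QS G 37 L) (hr : Real (.psu 3 11) (L ⧸ center L))
    (ho : Nat.card (L ⧸ center L) = 70915680) (hd : 3781980160 ∈ charDegrees G) : False := by
  have hLn := hL.normal
  set C := centralizer (L : Set G) with hCdef
  have hC : Nat.card C ∣ nU := card_dvd hLn (hN.dvd) ho (by decide +kernel) (by norm_num)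
  have hA : C.index ∣ 6 * 70915680 := by
    rw [← ho, ← aut_psu hr]
    exact index_dvd L hL.perf
  obtain ⟨c, hc, hc1, -⟩ := exists_degree L (m := 31) hd (by norm_num) (Nat.Coprime.coprime_dvd_right hA (by norm_num))
  have hdvC : ∀ p : ℕ, p.Prime → p ∣ NJ → ¬ p ∣ 6 * 70915680 → p ∣ Nat.card C := by
    intro p hp h1 h2
    have h3 : p ∣ Nat.card C * C.index := by
      rw [C.card_mul_index, hN]; exact h1
    rcases hp.dvd_mul.1 h3 with h4 | h4
    · exact h4
    · exact absurd (h4.trans hA) h2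
  have h43 : 43 ∣ Nat.card C := hdvC 43 (by norm_num) (by decide +kernel) (by norm_num)
  have h29 : 29 ∣ Nat.card C := hdvC 29 (by norm_num) (by decide +kernel) (by norm_num)
  -- the Sylow `43`-subgroup
  obtain ⟨P, hP⟩ : ∃ P : Sylow 43 C, (P : Subgroup C).Normal := by
    by_contra hcon
    push Not at hcon
    exact false_U T hK hC h43 (hc1.trans (H424.DegTools.dvd_card hc)) hcon
      (not_normal' hC (by decide +kernel) hc hc1)
  obtain ⟨Q⟩ : Nonempty (Sylow 29 C) := inferInstance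
  have hPc : Nat.card P = 43 := sylow_card hC (by decide +kernel) h43 P
  have hQc : Nat.card Q = 29 := sylow_card hC (by decide +kernel) h29 Q
  have hQ : (Q : Subgroup C).Normal := normal_of T hK valid_U once_U (by decide +kernel) (by (first | (refine of_decide_eq_true ?_; rewrite [Cfsg.Agent.KO17e88ed.e18, Cfsg.Agent.KO17e88ed.e19.{0}, Cfsg.Agent.KO17e88ed.e21]; decide +kernel) | decide +kernel)) hC Q hQc
  have hP' : (P : Subgroup C).Characteristic := Sylow.characteristic_of_normal _ hP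
  have hQ' : (Q : Subgroup C).Characteristic := Sylow.characteristic_of_normal _ hQ
  set A : Subgroup G := (P : Subgroup C).map C.subtype with hAdef
  set B : Subgroup G := (Q : Subgroup C).map C.subtype with hBdef
  have hAn : A.Normal := inferInstance
  have hBn : B.Normal := inferInstance
  have hAc : Nat.card A = 43 :=
    (Nat.card_congr ((P : Subgroup C).equivMapOfInjective C.subtype C.subtype_injective).toEquiv.symm).trans hPc
  have hBc : Nat.card B = 29 :=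
    (Nat.card_congr ((Q : Subgroup C).equivMapOfInjective C.subtype C.subtype_injective).toEquiv.symm).trans hQc
  set D : Subgroup G := centralizer (A : Set G) ⊓ centralizer (B : Set G) with hDdef
  have hAD : A ≤ D := le_inf (comm_of_prime (by norm_num) A hAc) (comm_of_coprime A B (by rw [hAc, hBc]; norm_num))
  have hBD : B ≤ D := le_inf (comm_of_coprime B A (by rw [hAc, hBc]; norm_num)) (comm_of_prime (by norm_num) B hBc)
  have hDi : D.index ∣ 42 * 28 :=
    (index_inf_dvd _ _).trans (Nat.mul_dvd_mul (index_centralizer_dvd (by norm_num) A hAc)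
      (index_centralizer_dvd (by norm_num) B hBc))
  have hDi' : D.index ∣ 168 := by
    have h1 : D.index ∣ NJ := by rw [← hN]; exact D.index_dvd_card
    have h2 := Nat.dvd_gcd hDi h1
    rwa [show Nat.gcd (42 * 28) NJ = 168 by decide +kernel] at h2
  obtain ⟨ψ, hψ, hψ1, hψ2⟩ := clifford_down D hd
  -- the centre of `D`
  have hcenA : 43 ∣ Nat.card (center D) := by
    have h1 : A.subgroupOf D ≤ center D := by
      intro x hx
      rw [mem_center_iff]
      intro g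
      exact Subtype.ext (mem_centralizer_iff.1 g.2.1 x hx).symm
    rw [← hAc, ← Nat.card_congr (subgroupOfEquivOfLe hAD).toEquiv]
    exact card_dvd_of_le h1
  have hcenB : 29 ∣ Nat.card (center D) := by
    have h1 : B.subgroupOf D ≤ center D := by
      intro x hx
      rw [mem_center_iff]
      intro g
      exact Subtype.ext (mem_centralizer_iff.1 g.2.2 x hx).symm
    rw [← hBc, ← Nat.card_congr (subgroupOfEquivOfLe hBD).toEquiv]
    exact card_dvd_of_le h1
  have hcen : 1247 ≤ Nat.card (center D) :=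
    Nat.le_of_dvd Nat.card_pos (Nat.Coprime.mul_dvd_of_dvd_of_dvd (m := 43) (n := 29) (by norm_num) hcenA hcenB)
  have h1 := sq_le hψ (center D) le_rfl
  have h2 := (center D).card_mul_index
  have h3 := D.card_mul_index
  rw [hN] at h3
  have h4 : D.index ≤ 168 := Nat.le_of_dvd (by norm_num) hDi'
  have h5 : 3781980160 / ψ ≤ D.index := Nat.le_of_dvd (Nat.pos_of_ne_zero index_ne_zero_of_finite) hψ2
  have h6 : ψ * (3781980160 / ψ) = 3781980160 := Nat.mul_div_cancel' hψ1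
  generalize 3781980160 / ψ = k at *
  have h7 : 1247 * ψ ^ 2 ≤ Nat.card D := by
    rw [← h2]
    exact Nat.mul_le_mul hcen h1
  have h8 : 3781980160 ≤ ψ * D.index := by rw [← h6]; exact Nat.mul_le_mul_left _ h5
  have h9 : 3781980160 ^ 2 ≤ ψ ^ 2 * D.index ^ 2 := by
    rw [← mul_pow]
    exact Nat.pow_le_pow_left h8 2
  have h10 : 1247 * (ψ ^ 2 * D.index ^ 2) ≤ Nat.card D * D.index ^ 2 := by
    rw [← mul_assoc]
    exact Nat.mul_le_mul_right _ h7
  have h11 : Nat.card D * D.index ^ 2 = NJ * D.index := by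
    rw [← h3]; ring
  have h12 : NJ * D.index ≤ NJ * 168 := Nat.mul_le_mul_left _ h4
  have h13 : 1247 * 3781980160 ^ 2 ≤ NJ * 168 :=
    (Nat.mul_le_mul_left 1247 h9).trans (h10.trans (h11.le.trans h12))
  revert h13
  decide +kernel

end Cfsg.Agent.H417.JFourCaseE
end

-- part: H417/JFourCaseF
section
/-!
# Groups of the order of `J₄` with the degree `2 ^ 21 * 3 ^ 3 * 5 * 7` (helper417)
-/

set_option autoImplicit false

namespace Cfsg.Agent.H417.JFourCaseF

open Subgroup Cfsg Cfsg.Agent.OrdDiv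
open Cfsg.Agent.H424.DegTools
open Cfsg.Agent.H417.DegQuasi Cfsg.Agent.H417.QSTools Cfsg.Agent.H417.Tricho Cfsg.Agent.H417.Engine
open Cfsg.Agent.H417.CommPQ Cfsg.Agent.H417.TwoNum Cfsg.Agent.H417.CentQS Cfsg.Agent.H417.PairPQ
open Cfsg.Agent.H417.JFourCase Cfsg.Agent.H417.JFourCaseE

universe u

/-- the small primes -/
def Small (r : ℕ) : Prop := r = 2 ∨ r = 3 ∨ r = 5 ∨ r = 7

/-- the degree -/
def bb : ℕ := 1981808640

theorem small_of_dvd {r : ℕ} (hr : r.Prime) (h : r ∣ bb) : Small r := by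
  have h1 : bb = 2 ^ 21 * 3 ^ 3 * 5 * 7 := by decide +kernel
  rw [h1] at h
  unfold Small
  rcases hr.dvd_mul.1 h with h | h
  · rcases hr.dvd_mul.1 h with h | h
    · rcases hr.dvd_mul.1 h with h | h
      · left; exact (Nat.prime_dvd_prime_iff_eq hr (by norm_num)).1 (hr.dvd_of_dvd_pow h)
      · right; left; exact (Nat.prime_dvd_prime_iff_eq hr (by norm_num)).1 (hr.dvd_of_dvd_pow h)
    · right; right; left; exact (Nat.prime_dvd_prime_iff_eq hr (by norm_num)).1 h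
  · right; right; right; exact (Nat.prime_dvd_prime_iff_eq hr (by norm_num)).1 h

/-- defect zero for the small primes -/
def DZ (H : Type u) [Group H] (c : ℕ) : Prop :=
  ∀ r, Small r → (Nat.card H).factorization r ≤ c.factorization r

variable {H : Type u} [Group H] [Finite H]

theorem DZ.down {c : ℕ} (hc : c ∈ charDegrees H) (h : DZ H c) (M : Subgroup H) [M.Normal] :
    ∃ d ∈ charDegrees M, DZ M d := by
  obtain ⟨d, hd, h1, h2⟩ := clifford_down M hc
  refine ⟨d, hd, fun r hr => ?_⟩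
  have h3 := h r hr
  have hd0 : d ≠ 0 := (pos_of_mem hd).ne'
  have hc0 : c / d ≠ 0 := by
    intro h0
    have := Nat.mul_div_cancel' h1
    rw [h0, mul_zero] at this
    exact (pos_of_mem hc).ne' this.symm
  have h4 : c.factorization r = d.factorization r + (c / d).factorization r := by
    conv_lhs => rw [← Nat.mul_div_cancel' h1]
    rw [Nat.factorization_mul hd0 hc0, Finsupp.add_apply]
  have h5 : (Nat.card H).factorization r = (Nat.card M).factorization r + M.index.factorization r := by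
    rw [← M.card_mul_index, Nat.factorization_mul Nat.card_pos.ne' index_ne_zero_of_finite, Finsupp.add_apply]
  have h6 : (c / d).factorization r ≤ M.index.factorization r :=
    (Nat.factorization_le_iff_dvd hc0 index_ne_zero_of_finite).2 h2 r
  omega

/-- no normal `r`-subgroup -/
theorem DZ.bot {c : ℕ} (hc : c ∈ charDegrees H) (h : DZ H c) (M : Subgroup H) [M.Normal] {r : ℕ} (hr : Small r)
    (hM : IsPGroup r M) : M = ⊥ := by
  have hrp : r.Prime := by rcases hr with rfl | rfl | rfl | rfl <;> norm_num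
  have := Fact.mk hrp
  obtain ⟨k, hk⟩ := IsPGroup.iff_card.1 hM
  obtain ⟨d, hd, h1⟩ := h.down hc M
  have h2 := h1 r hr
  rw [hk, hrp.factorization_pow, Finsupp.single_eq_same] at h2
  have h3 : r ^ k ∣ d := (hrp.pow_dvd_iff_le_factorization (pos_of_mem hd).ne').2 h2
  have h4 := Nat.le_of_dvd (pos_of_mem hd) h3
  have h5 := sq_le hd ⊥ bot_le
  rw [index_bot, hk] at h5
  have h6 : 0 < r ^ k := Nat.pow_pos hrp.pos
  have h7 : r ^ k ≤ 1 := by
    by_contra hcon
    have : d ^ 2 ≤ d := h5.trans h4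
    nlinarith
  exact Subgroup.card_eq_one.1 (by rw [hk]; omega)

/-- divisibility by the `Small` part -/
theorem gcd_dvd {o d m : ℕ} (ho : o ≠ 0) (hm : m ≠ 0) (hom : o ∣ m) (hd : d ≠ 0)
    (h : ∀ r, Small r → m.factorization r ≤ d.factorization r) : Nat.gcd o bb ∣ d := by
  rw [← Nat.factorization_prime_le_iff_dvd (Nat.gcd_ne_zero_left ho) hd]
  intro r hr
  by_cases hs : Small r
  · refine le_trans ?_ (h r hs)
    refine le_trans ?_ ((Nat.factorization_le_iff_dvd ho hm).2 hom r)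
    exact (Nat.factorization_le_iff_dvd (Nat.gcd_ne_zero_left ho) ho).2 (Nat.gcd_dvd_left _ _) r
  · have h1 : ¬ r ∣ bb := fun h => hs (small_of_dvd hr h)
    have h2 : ¬ r ∣ Nat.gcd o bb := fun h => h1 (h.trans (Nat.gcd_dvd_right _ _))
    rw [Nat.factorization_eq_zero_of_not_dvd h2]
    exact Nat.zero_le _

/-- candidates -/
theorem DZ.cand {c : ℕ} (hc : c ∈ charDegrees H) (h : DZ H c) (X : Subgroup H) [X.Normal] {o : ℕ}
    (ho : Nat.card (X ⧸ center X) = o) : Nat.gcd o bb ^ 2 ≤ o := by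
  obtain ⟨d, hd, h1⟩ := h.down hc X
  have h2 := sq_le hd (center X) le_rfl
  have h3 : (center X).index = o := ho
  rw [h3] at h2
  have h0 : o ≠ 0 := by rw [← ho]; exact Nat.card_pos.ne'
  have h4 : Nat.gcd o bb ∣ d := gcd_dvd h0 (Nat.card_pos (α := X)).ne'
    (by rw [← ho]; exact card_quotient_dvd_card _) (pos_of_mem hd).ne' h1
  exact (Nat.pow_le_pow_left (Nat.le_of_dvd (pos_of_mem hd) h4) 2).trans h2

/-- the bound on the `2`-part of a group with `5` central Sylow subgroups -/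
theorem DZ.central {c : ℕ} (hc : c ∈ charDegrees H) (h : DZ H c) (hd : Nat.card H ∣ NJ)
    (hcen : ∀ p, p = 23 ∨ p = 29 ∨ p = 31 ∨ p = 37 ∨ p = 43 → p ∣ Nat.card H → p ∣ Nat.card (center H)) :
    2 ^ (Nat.card H).factorization 2 ≤ 11 ^ (Nat.card H).factorization 11 := by
  have hH0 : Nat.card H ≠ 0 := Nat.card_pos.ne'
  have hNJ : NJ ≠ 0 := by decide +kernel
  set g := Nat.gcd (Nat.card H) bb with hg
  have h1 : g ∣ c := gcd_dvd hH0 hH0 dvd_rfl (pos_of_mem hc).ne' h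
  have h2 := sq_le hc (center H) le_rfl
  set i := (center H).index with hi
  have hi0 : i ≠ 0 := index_ne_zero_of_finite
  have hiH : i ∣ Nat.card H := (center H).index_dvd_card
  have hmul : Nat.card (center H) * i = Nat.card H := (center H).card_mul_index
  -- `i` divides the part prime to the five primes
  have h3 : i ∣ bb * 1331 := by
    have hiN : i ∣ NJ := hiH.trans hd
    have e : NJ = bb * 1331 * (23 * 29 * 31 * 37 * 43) := by decide +kernel
    rw [e] at hiN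
    refine Nat.Coprime.dvd_of_dvd_mul_right ?_ hiN
    have hno : ∀ p, p.Prime → (p = 23 ∨ p = 29 ∨ p = 31 ∨ p = 37 ∨ p = 43) → ¬ p ∣ i := by
      intro p hp hp' hpi
      have h4 := hcen p hp' (hpi.trans hiH)
      have h5 : p ^ 2 ∣ NJ := by
        rw [pow_two]
        exact (Nat.mul_dvd_mul h4 hpi).trans (hmul ▸ hd)
      revert h5
      rcases hp' with rfl | rfl | rfl | rfl | rfl <;> decide +kernel
    have hcop : ∀ p, p.Prime → (p = 23 ∨ p = 29 ∨ p = 31 ∨ p = 37 ∨ p = 43) → i.Coprime p := fun p hp hp' =>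
      ((Nat.Prime.coprime_iff_not_dvd hp).2 (hno p hp hp')).symm
    exact Nat.Coprime.mul_right (Nat.Coprime.mul_right (Nat.Coprime.mul_right (Nat.Coprime.mul_right
      (hcop 23 (by norm_num) (by (solve | simp only [*, true_or, or_true, and_self, true_and, and_true, not_false_eq_true] | tauto))) (hcop 29 (by norm_num) (by (solve | simp only [*, true_or, or_true, and_self, true_and, and_true, not_false_eq_true] | tauto)))) (hcop 31 (by norm_num) (by (solve | simp only [*, true_or, or_true, and_self, true_and, and_true, not_false_eq_true] | tauto))))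
      (hcop 37 (by norm_num) (by (solve | simp only [*, true_or, or_true, and_self, true_and, and_true, not_false_eq_true] | tauto)))) (hcop 43 (by norm_num) (by (solve | simp only [*, true_or, or_true, and_self, true_and, and_true, not_false_eq_true] | tauto)))
  have h4 : i ∣ g * Nat.gcd (Nat.card H) 1331 := by
    have h5 := Nat.dvd_gcd hiH h3
    rwa [Nat.Coprime.gcd_mul (Nat.card H) (show Nat.Coprime bb 1331 by decide +kernel)] at h5
  have h5 : Nat.gcd (Nat.card H) 1331 ∣ 11 ^ (Nat.card H).factorization 11 := by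
    have h6 : Nat.gcd (Nat.card H) 1331 ∣ 11 ^ 3 := Nat.gcd_dvd_right _ _
    obtain ⟨k, hk, hk'⟩ := (Nat.dvd_prime_pow (by norm_num : Nat.Prime 11)).1 h6
    rw [hk']
    refine pow_dvd_pow _ ?_
    rw [← (by norm_num : Nat.Prime 11).pow_dvd_iff_le_factorization hH0, ← hk']
    exact Nat.gcd_dvd_left _ _
  have hg0 : 0 < g := Nat.gcd_pos_of_pos_left _ (Nat.pos_of_ne_zero hH0)
  have h6 : g ^ 2 ≤ g * 11 ^ (Nat.card H).factorization 11 := by
    refine (Nat.pow_le_pow_left (Nat.le_of_dvd (pos_of_mem hc) h1) 2).trans (h2.trans ?_)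
    exact Nat.le_of_dvd (Nat.mul_pos hg0 (Nat.pow_pos (by norm_num))) (h4.trans (Nat.mul_dvd_mul_left _ h5))
  have h7 : g ≤ 11 ^ (Nat.card H).factorization 11 := by
    rw [pow_two] at h6
    exact Nat.le_of_mul_le_mul_left h6 hg0
  refine le_trans (Nat.le_of_dvd hg0 ?_) h7
  refine Nat.dvd_gcd (Nat.ordProj_dvd _ _) ?_
  have h8 : (Nat.card H).factorization 2 ≤ 21 := by
    have := (Nat.factorization_le_iff_dvd hH0 hNJ).2 hd 2
    refine this.trans ?_
    by_contra hcon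
    have h9 : 2 ^ 22 ∣ NJ := (Nat.prime_two.pow_dvd_iff_le_factorization hNJ).2 (by omega)
    revert h9
    decide +kernel
  exact (pow_dvd_pow 2 h8).trans (by decide +kernel)

theorem fact_mul (M : Subgroup H) (r : ℕ) :
    (Nat.card H).factorization r = (Nat.card M).factorization r + M.index.factorization r := by
  rw [← M.card_mul_index, Nat.factorization_mul Nat.card_pos.ne' index_ne_zero_of_finite, Finsupp.add_apply]

/-- the five primes -/
def Five (p : ℕ) : Prop := p = 23 ∨ p = 29 ∨ p = 31 ∨ p = 37 ∨ p = 43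

theorem Five.prime {p : ℕ} (h : Five p) : p.Prime := by
  rcases h with rfl | rfl | rfl | rfl | rfl <;> norm_num

theorem Five.sq {p : ℕ} (h : Five p) : ¬ p ^ 2 ∣ NJ := by
  rcases h with rfl | rfl | rfl | rfl | rfl <;> decide +kernel

theorem index_sylow_dvd (hd : Nat.card H ∣ NJ) {p : ℕ} (hp : Five p) [Fact p.Prime] (P : Sylow p H)
    (hP : (P : Subgroup H).Normal) : (centralizer ((P : Subgroup H) : Set H)).index ∣ p - 1 := by
  by_cases h : p ∣ Nat.card H
  · exact index_centralizer_dvd hp.prime _ (sylow_card hd hp.sq h P)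
  · have h1 : (P : Subgroup H) = ⊥ := by
      rw [← Subgroup.card_eq_one]
      have h2 : Nat.card P = p ^ (Nat.card H).factorization p := P.card_eq_multiplicity
      rw [Nat.factorization_eq_zero_of_not_dvd h, pow_zero] at h2
      exact h2
    have h2 : centralizer ((P : Subgroup H) : Set H) = ⊤ := by
      rw [h1, eq_top_iff]
      intro x _
      rw [mem_centralizer_iff]
      intro y hy
      rw [SetLike.mem_coe, mem_bot] at hy
      rw [hy, one_mul, mul_one]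
    rw [h2, index_top]
    exact one_dvd _

/-- all five Sylow subgroups normal -/
theorem all_normal {c : ℕ} (hc : c ∈ charDegrees H) (h : DZ H c) (hd : Nat.card H ∣ NJ)
    (hall : ∀ p, Five p → ∀ P : Sylow p H, (P : Subgroup H).Normal) :
    2 ^ (Nat.card H).factorization 2 ≤ 128 * 11 ^ (Nat.card H).factorization 11 := by
  obtain ⟨P1⟩ : Nonempty (Sylow 23 H) := inferInstance
  obtain ⟨P2⟩ : Nonempty (Sylow 29 H) := inferInstance
  obtain ⟨P3⟩ : Nonempty (Sylow 31 H) := inferInstance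
  obtain ⟨P4⟩ : Nonempty (Sylow 37 H) := inferInstance
  obtain ⟨P5⟩ : Nonempty (Sylow 43 H) := inferInstance
  have n1 := hall 23 (by unfold Five; tauto) P1
  have n2 := hall 29 (by unfold Five; tauto) P2
  have n3 := hall 31 (by unfold Five; (solve | simp only [*, true_or, or_true, and_self, true_and, and_true, not_false_eq_true] | tauto)) P3
  have n4 := hall 37 (by unfold Five; (solve | simp only [*, true_or, or_true, and_self, true_and, and_true, not_false_eq_true] | tauto)) P4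
  have n5 := hall 43 (by unfold Five; (solve | simp only [*, true_or, or_true, and_self, true_and, and_true, not_false_eq_true] | tauto)) P5
  set C1 := centralizer ((P1 : Subgroup H) : Set H) with hC1
  set C2 := centralizer ((P2 : Subgroup H) : Set H) with hC2
  set C3 := centralizer ((P3 : Subgroup H) : Set H) with hC3
  set C4 := centralizer ((P4 : Subgroup H) : Set H) with hC4
  set C5 := centralizer ((P5 : Subgroup H) : Set H) with hC5
  have i1 := index_sylow_dvd hd (by unfold Five; tauto) P1 n1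
  have i2 := index_sylow_dvd hd (by unfold Five; tauto) P2 n2
  have i3 := index_sylow_dvd hd (by unfold Five; (solve | simp only [*, true_or, or_true, and_self, true_and, and_true, not_false_eq_true] | tauto)) P3 n3
  have i4 := index_sylow_dvd hd (by unfold Five; (solve | simp only [*, true_or, or_true, and_self, true_and, and_true, not_false_eq_true] | tauto)) P4 n4
  have i5 := index_sylow_dvd hd (by unfold Five; (solve | simp only [*, true_or, or_true, and_self, true_and, and_true, not_false_eq_true] | tauto)) P5 n5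
  set D : Subgroup H := C1 ⊓ (C2 ⊓ (C3 ⊓ (C4 ⊓ C5))) with hD
  have hDi : D.index ∣ 22 * (28 * (30 * (36 * 42))) :=
    (index_inf_dvd _ _).trans (Nat.mul_dvd_mul i1 ((index_inf_dvd _ _).trans (Nat.mul_dvd_mul i2
      ((index_inf_dvd _ _).trans (Nat.mul_dvd_mul i3 ((index_inf_dvd _ _).trans (Nat.mul_dvd_mul i4 i5)))))))
  have hDH : Nat.card D ∣ NJ := (card_subgroup_dvd_card D).trans hd
  obtain ⟨d, hdd, hdz⟩ := h.down hc D
  have key : ∀ (p : ℕ) (hp : Five p) (_ : Fact p.Prime) (P : Sylow p H), D ≤ centralizer ((P : Subgroup H) : Set H) →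
      p ∣ Nat.card D → p ∣ Nat.card (center D) := by
    intro p hp _ P hDP hpD
    have hPc := sylow_card hd hp.sq (hpD.trans (card_subgroup_dvd_card D)) P
    have hPD := Quasi.le_of_dvd P hPc D hpD
    have h1 : (P : Subgroup H).subgroupOf D ≤ center D := by
      intro x hx
      rw [mem_center_iff]
      intro g
      exact Subtype.ext (mem_centralizer_iff.1 (hDP g.2) x hx).symm
    have h2 : Nat.card ((P : Subgroup H).subgroupOf D) = p :=
      (Nat.card_congr (subgroupOfEquivOfLe hPD).toEquiv).trans hPc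
    rw [← h2]
    exact card_dvd_of_le h1
  have h1 := hdz.central hdd hDH (by
    rintro p (rfl | rfl | rfl | rfl | rfl) hpD
    · exact key 23 (by unfold Five; tauto) inferInstance P1 inf_le_left hpD
    · exact key 29 (by unfold Five; (solve | simp only [*, true_or, or_true, and_self, true_and, and_true, not_false_eq_true] | tauto)) inferInstance P2 (inf_le_right.trans inf_le_left) hpD
    · exact key 31 (by unfold Five; (solve | simp only [*, true_or, or_true, and_self, true_and, and_true, not_false_eq_true] | tauto)) inferInstance P3 (inf_le_right.trans (inf_le_right.trans inf_le_left)) hpD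
    · exact key 37 (by unfold Five; (solve | simp only [*, true_or, or_true, and_self, true_and, and_true, not_false_eq_true] | tauto)) inferInstance P4
        (inf_le_right.trans (inf_le_right.trans (inf_le_right.trans inf_le_left))) hpD
    · exact key 43 (by unfold Five; (solve | simp only [*, true_or, or_true, and_self, true_and, and_true, not_false_eq_true] | tauto)) inferInstance P5
        (inf_le_right.trans (inf_le_right.trans (inf_le_right.trans inf_le_right))) hpD)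
  have h2 := fact_mul D 2
  have h3 := fact_mul D 11
  have h4 : D.index.factorization 2 ≤ 7 := by
    have h5 := (Nat.factorization_le_iff_dvd index_ne_zero_of_finite (by norm_num)).2 hDi 2
    refine h5.trans ?_
    by_contra hcon
    have h9 : 2 ^ 8 ∣ 22 * (28 * (30 * (36 * 42))) :=
      (Nat.prime_two.pow_dvd_iff_le_factorization (by norm_num)).2 (by omega)
    revert h9
    decide +kernel
  rw [h2, pow_add]
  calc 2 ^ (Nat.card D).factorization 2 * 2 ^ D.index.factorization 2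
      ≤ 11 ^ (Nat.card D).factorization 11 * 2 ^ 7 := Nat.mul_le_mul h1 (Nat.pow_le_pow_right (by norm_num) h4)
    _ ≤ 128 * 11 ^ (Nat.card H).factorization 11 := by
      rw [mul_comm, show (2 : ℕ) ^ 7 = 128 by norm_num]
      exact Nat.mul_le_mul_left _ (Nat.pow_le_pow_right (by norm_num) (by omega))

/-- the weight -/
def wt (n : ℕ) : ℕ := (if 23 ∣ n then 16 else 11) * (if 31 ∣ n then 32 else 11)

theorem wt_pos (n : ℕ) : 121 ≤ wt n := by
  unfold wt
  split_ifs <;> norm_num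

theorem wt_mono {m n : ℕ} (h : m ∣ n) : wt m ≤ wt n := by
  unfold wt
  by_cases h1 : 23 ∣ m
  · rw [if_pos h1, if_pos (h1.trans h)]
    by_cases h2 : 31 ∣ m
    · rw [if_pos h2, if_pos (h2.trans h)]
    · rw [if_neg h2]
      split_ifs <;> norm_num
  · rw [if_neg h1]
    by_cases h2 : 31 ∣ m
    · rw [if_pos h2, if_pos (h2.trans h)]
      split_ifs <;> norm_num
    · rw [if_neg h2]
      split_ifs <;> norm_num

theorem wt_23 {m n : ℕ} (h : m ∣ n) (h1 : ¬ 23 ∣ m) (h2 : 23 ∣ n) : 16 * wt m ≤ 11 * wt n := by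
  unfold wt
  rw [if_neg h1, if_pos h2]
  by_cases h3 : 31 ∣ m
  · rw [if_pos h3, if_pos (h3.trans h)]
  · rw [if_neg h3]
    split_ifs <;> norm_num

theorem wt_31 {m n : ℕ} (h : m ∣ n) (h1 : ¬ 31 ∣ m) (h2 : 31 ∣ n) : 32 * wt m ≤ 11 * wt n := by
  unfold wt
  rw [if_neg h1, if_pos h2]
  by_cases h3 : 23 ∣ m
  · rw [if_pos h3, if_pos (h3.trans h)]
  · rw [if_neg h3]
    split_ifs <;> norm_num

/-- the inductive step in numbers -/
theorem step_num {m n i k a w : ℕ} (hm : m ≠ 0) (hi : i ≠ 0) (hn : n = m * i) (h2 : i.factorization 2 ≤ k)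
    (h11 : m.factorization 11 + a ≤ n.factorization 11)
    (hw : 2 ^ k * wt m ≤ 11 ^ a * w)
    (ih : 121 * 2 ^ m.factorization 2 ≤ 128 * 11 ^ m.factorization 11 * wt m) :
    121 * 2 ^ n.factorization 2 ≤ 128 * 11 ^ n.factorization 11 * w := by
  have h1 : n.factorization 2 = m.factorization 2 + i.factorization 2 := by
    rw [hn, Nat.factorization_mul hm hi, Finsupp.add_apply]
  rw [h1, pow_add]
  calc 121 * (2 ^ m.factorization 2 * 2 ^ i.factorization 2)
      = (121 * 2 ^ m.factorization 2) * 2 ^ i.factorization 2 := by ring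
    _ ≤ (128 * 11 ^ m.factorization 11 * wt m) * 2 ^ k :=
      Nat.mul_le_mul ih (Nat.pow_le_pow_right (by norm_num) h2)
    _ = 128 * 11 ^ m.factorization 11 * (2 ^ k * wt m) := by ring
    _ ≤ 128 * 11 ^ m.factorization 11 * (11 ^ a * w) := Nat.mul_le_mul_left _ hw
    _ = 128 * 11 ^ (m.factorization 11 + a) * w := by rw [pow_add]; ring
    _ ≤ 128 * 11 ^ n.factorization 11 * w :=
      Nat.mul_le_mul_right _ (Nat.mul_le_mul_left _ (Nat.pow_le_pow_right (by norm_num) h11))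

theorem fact_le_of {i A k p : ℕ} (hp : p.Prime) (hA : A ≠ 0) (h : i ∣ A) (h2 : ¬ p ^ (k + 1) ∣ A) :
    i.factorization p ≤ k := by
  by_contra hcon
  have hi : i ≠ 0 := by rintro rfl; exact hA (Nat.eq_zero_of_zero_dvd h)
  exact h2 (((hp.pow_dvd_iff_le_factorization hi).2 (by omega)).trans h)

/-- **The component step** -/
theorem comp_step {o A a k w : ℕ} (X : Subgroup H) [X.Normal] (hX : commutator X = ⊤)
    (ho : Nat.card (X ⧸ center X) = o) (hA : Nat.card (MulAut (X ⧸ center X)) = A) (hA0 : A ≠ 0)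
    (hk : ¬ 2 ^ (k + 1) ∣ A) (ha : 11 ^ a ∣ o)
    (hw : 2 ^ k * wt (Nat.card (centralizer (X : Set H))) ≤ 11 ^ a * w)
    (ih : 121 * 2 ^ (Nat.card (centralizer (X : Set H))).factorization 2 ≤
      128 * 11 ^ (Nat.card (centralizer (X : Set H))).factorization 11 * wt (Nat.card (centralizer (X : Set H)))) :
    121 * 2 ^ (Nat.card H).factorization 2 ≤ 128 * 11 ^ (Nat.card H).factorization 11 * w := by
  set C := centralizer (X : Set H) with hC
  have h1 : o * Nat.card C ∣ Nat.card H := by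
    rw [← ho]
    exact card_mul_dvd X
  have ho0 : o ≠ 0 := by rw [← ho]; exact Nat.card_pos.ne'
  refine step_num (m := Nat.card C) (i := C.index) (k := k) (a := a) Nat.card_pos.ne' index_ne_zero_of_finite
    C.card_mul_index.symm ?_ ?_ hw ih
  · refine fact_le_of Nat.prime_two hA0 ?_ hk
    rw [← hA]
    exact index_dvd X hX
  · have h2 := (Nat.factorization_le_iff_dvd (Nat.mul_ne_zero ho0 (Nat.card_pos (α := C)).ne')
      (Nat.card_pos (α := H)).ne').2 h1 11
    rw [Nat.factorization_mul ho0 (Nat.card_pos (α := C)).ne', Finsupp.add_apply] at h2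
    have h3 : a ≤ o.factorization 11 := ((by norm_num : Nat.Prime 11).pow_dvd_iff_le_factorization ho0).1 ha
    omega

private noncomputable def _root_.Cfsg.Agent.KO17e88ed.k25 : type_of% @Bool.decEq := @(fun x0 x1 => @Bool.rec.{1} @(fun x2 => @Decidable (@Eq.{1} _ @x2 @x1)) (@Bool.rec.{1} @(fun x2 => @Decidable (@Eq.{1} _ @Bool.false @x2)) (@Decidable.isTrue _ (@rfl.{1} _ _)) (@Decidable.isFalse _ @(fun x2 => @Bool.noConfusion.{0} _ _ _ @x2)) @x1) (@Bool.rec.{1} @(fun x2 => @Decidable (@Eq.{1} _ @Bool.true @x2)) (@Decidable.isFalse _ @(fun x2 => @Bool.noConfusion.{0} _ _ _ @x2)) (@Decidable.isTrue _ (@rfl.{1} _ _)) @x1) @x0)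
private theorem _root_.Cfsg.Agent.KO17e88ed.e25 : @Bool.decEq = @_root_.Cfsg.Agent.KO17e88ed.k25 := by delta _root_.Cfsg.Agent.KO17e88ed.k25; rfl'
private noncomputable def _root_.Cfsg.Agent.KO17e88ed.k26 : type_of% @Nat.decLe := @(fun x0 x1 => @Decidable.rec.{1} _ @(fun x2 => @Decidable (@LE.le.{0} _ _ @x0 @x1)) @(fun x2 => @Decidable.isFalse _ (@Nat.not_le_of_not_ble_eq_true _ _ @x2)) @(fun x2 => @Decidable.isTrue _ (@Nat.le_of_ble_eq_true _ _ @x2)) (@Cfsg.Agent.KO17e88ed.k25 (@Nat.ble @x0 @x1) @Bool.true))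
private theorem _root_.Cfsg.Agent.KO17e88ed.e26 : @Nat.decLe = @_root_.Cfsg.Agent.KO17e88ed.k26 := by delta _root_.Cfsg.Agent.KO17e88ed.k26; rewrite [← Cfsg.Agent.KO17e88ed.e25]; rfl'

theorem bound (T : OrderTable.{u}) (hK : ∀ (K : Type u) [Group K] [Finite K] [IsSimpleGroup K],
    IsKnownSimple' K) (n : ℕ) : ∀ (H : Type u) [Group H] [Finite H], Nat.card H = n → n ∣ NJ →
    (∀ X : Subgroup H, X.Normal → Real .j4 (X ⧸ center X) → Nat.card (X ⧸ center X) = NJ → False) →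
    ∀ c ∈ charDegrees H, DZ H c → 121 * 2 ^ n.factorization 2 ≤ 128 * 11 ^ n.factorization 11 * wt n := by
  induction n using Nat.strong_induction_on with
  | _ n ih =>
  intro H _ _ hH hn hJ c hc hDZ
  subst hH
  by_cases hall : ∀ p, Five p → ∀ P : Sylow p H, (P : Subgroup H).Normal
  · have h1 := all_normal hc hDZ hn hall
    have h2 := wt_pos (Nat.card H)
    calc 121 * 2 ^ (Nat.card H).factorization 2 ≤ 121 * (128 * 11 ^ (Nat.card H).factorization 11) :=
          Nat.mul_le_mul_left _ h1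
      _ = 128 * 11 ^ (Nat.card H).factorization 11 * 121 := by ring
      _ ≤ _ := Nat.mul_le_mul_left _ h2
  · push Not at hall
    obtain ⟨p, hp, P, hP⟩ := hall
    have hpF : Fact p.Prime := ⟨hp.prime⟩
    have hpH : p ∣ Nat.card H := by
      by_contra h
      apply hP
      have h1 : (P : Subgroup H) = ⊥ := by
        rw [← Subgroup.card_eq_one]
        have h2 : Nat.card P = p ^ (Nat.card H).factorization p := P.card_eq_multiplicity
        rw [Nat.factorization_eq_zero_of_not_dvd h, pow_zero] at h2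
        exact h2
      rw [h1]
      infer_instance
    obtain ⟨X, hX, hXc, h⟩ := engine_two T hK valid_N once_N
      (by rcases hp with rfl | rfl | rfl | rfl | rfl <;> decide +kernel) hn P (sylow_card hn hp.sq hpH P) hP
    rcases h with h | ⟨hper, -, -, g, hg, hgr, hgo, -⟩
    · exfalso
      apply hXc
      rw [hDZ.bot hc X (r := 2) (Or.inl rfl) h]
      exact bot_le
    · have hg1 : g ∈ (cands lN NJ).filter (fun g => decide (Nat.gcd (ordN g) bb ^ 2 ≤ ordN g)) := by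
        rw [List.mem_filter]
        refine ⟨(List.mem_filter.1 hg).1, ?_⟩
        rw [decide_eq_true_eq, ← hgo]
        exact hDZ.cand hc X rfl
      rw [show (cands lN NJ).filter (fun g => decide (Nat.gcd (ordN g) bb ^ 2 ≤ ordN g)) =
        [.psl 2 32, .psl 2 23, .psl 2 43, .psu 3 11, .j4] by (first | (refine of_decide_eq_true ?_; rewrite [Cfsg.Agent.KO17e88ed.e18, Cfsg.Agent.KO17e88ed.e24.{0}, Cfsg.Agent.KO17e88ed.e7.{0}, Cfsg.Agent.KO17e88ed.e26, Cfsg.Agent.KO17e88ed.e16, Cfsg.Agent.KO17e88ed.e14]; decide +kernel) | decide +kernel)] at hg1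
      simp only [List.mem_cons, List.not_mem_nil, or_false] at hg1
      -- the centralizer
      set C := centralizer (X : Set H) with hC
      have hdvd : Nat.card (X ⧸ center X) * Nat.card C ∣ Nat.card H := card_mul_dvd X
      obtain ⟨d, hd, hdz⟩ := hDZ.down hc C
      have hCn : Nat.card C ∣ NJ := (card_subgroup_dvd_card C).trans hn
      have hCH : Nat.card C ∣ Nat.card H := card_subgroup_dvd_card C
      have ih' : 1 < Nat.card (X ⧸ center X) → 121 * 2 ^ (Nat.card C).factorization 2 ≤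
          128 * 11 ^ (Nat.card C).factorization 11 * wt (Nat.card C) := by
        intro hgt
        have hlt : Nat.card C < Nat.card H := by
          have h1 := Nat.le_of_dvd Nat.card_pos hdvd
          have h2 : 0 < Nat.card C := Nat.card_pos
          nlinarith
        refine ih (Nat.card C) hlt C rfl hCn ?_ d hd hdz
        intro Y hY _ hYN
        have h1 : Nat.card (Y ⧸ center Y) ≤ Nat.card C :=
          Nat.le_of_dvd Nat.card_pos ((card_quotient_dvd_card _).trans (card_subgroup_dvd_card Y))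
        have h2 : Nat.card H ≤ NJ := Nat.le_of_dvd (by decide +kernel) hn
        omega
      -- divisibility by the primes of the component
      have hq : ∀ q, q.Prime → q ∣ Nat.card (X ⧸ center X) → ¬ q ^ 2 ∣ NJ →
          ¬ q ∣ Nat.card C ∧ q ∣ Nat.card H := by
        intro q _ hqo hq2
        refine ⟨fun h => hq2 ?_, hqo.trans ((dvd_mul_right _ _).trans hdvd)⟩
        rw [pow_two]
        exact (Nat.mul_dvd_mul hqo h).trans (hdvd.trans hn)
      have f2 : Fact (Nat.Prime 2) := ⟨Nat.prime_two⟩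
      rcases hg1 with rfl | rfl | rfl | rfl | rfl
      · have ho : Nat.card (X ⧸ center X) = 32736 := by rw [hgo]; decide +kernel
        obtain ⟨q1, q2⟩ := hq 31 (by norm_num) (by rw [ho]; norm_num) (by decide +kernel)
        have hw := wt_31 hCH q1 q2
        exact comp_step X hper ho (aut_psl (p := 2) (f := 5) (by norm_num) (by norm_num) (by norm_num) hgr)
          (by norm_num) (k := 5) (a := 1) (by norm_num) (by norm_num) (by simpa using hw) (ih' (by rw [ho]; norm_num))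
      · have ho : Nat.card (X ⧸ center X) = 6072 := by rw [hgo]; decide +kernel
        obtain ⟨q1, q2⟩ := hq 23 (by norm_num) (by rw [ho]; norm_num) (by decide +kernel)
        have hw := wt_23 hCH q1 q2
        exact comp_step X hper ho (aut_psl (p := 23) (f := 1) (by norm_num) (by norm_num) (by norm_num) hgr)
          (by norm_num) (k := 4) (a := 1) (by norm_num) (by norm_num) (by simpa using hw) (ih' (by rw [ho]; norm_num))
      · have ho : Nat.card (X ⧸ center X) = 39732 := by rw [hgo]; decide +kernel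
        have hw := wt_mono hCH
        exact comp_step X hper ho (aut_psl (p := 43) (f := 1) (by norm_num) (by norm_num) (by norm_num) hgr)
          (by norm_num) (k := 3) (a := 1) (by norm_num) (by norm_num) (by rw [← hC]; omega) (ih' (by rw [ho]; norm_num))
      · have ho : Nat.card (X ⧸ center X) = 70915680 := by rw [hgo]; decide +kernel
        have hw := wt_mono hCH
        have hA := aut_psu hgr
        rw [ho] at hA
        exact comp_step X hper ho hA
          (by norm_num) (k := 6) (a := 3) (by norm_num) (by norm_num) (by rw [← hC]; omega) (ih' (by rw [ho]; norm_num))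
      · exfalso
        exact hJ X hX hgr (by rw [hgo]; decide +kernel)

/-- **Case F** -/
theorem case_F (T : OrderTable.{u}) (hK : ∀ (K : Type u) [Group K] [Finite K] [IsSimpleGroup K],
    IsKnownSimple' K) (hN : Nat.card H = NJ) (hd : 1981808640 ∈ charDegrees H) : Spor.IsoJ4 H := by
  by_contra hno
  have hDZ : DZ H 1981808640 := by
    intro r hr
    rw [hN]
    have e : (1981808640 : ℕ) ≠ 0 := by norm_num
    rcases hr with rfl | rfl | rfl | rfl
    · exact (fact_le_of (by norm_num) (by decide +kernel) dvd_rfl (by decide +kernel) :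
        NJ.factorization 2 ≤ 21).trans (((by norm_num : Nat.Prime 2).pow_dvd_iff_le_factorization e).1 (by decide +kernel))
    · exact (fact_le_of (by norm_num) (by decide +kernel) dvd_rfl (by decide +kernel) :
        NJ.factorization 3 ≤ 3).trans (((by norm_num : Nat.Prime 3).pow_dvd_iff_le_factorization e).1 (by decide +kernel))
    · exact (fact_le_of (by norm_num) (by decide +kernel) dvd_rfl (by decide +kernel) :
        NJ.factorization 5 ≤ 1).trans (((by norm_num : Nat.Prime 5).pow_dvd_iff_le_factorization e).1 (by decide +kernel))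
    · exact (fact_le_of (by norm_num) (by decide +kernel) dvd_rfl (by decide +kernel) :
        NJ.factorization 7 ≤ 1).trans (((by norm_num : Nat.Prime 7).pow_dvd_iff_le_factorization e).1 (by decide +kernel))
  have hb := bound T hK NJ H hN dvd_rfl ?_ _ hd hDZ
  · have h2 : 21 ≤ NJ.factorization 2 :=
      (Nat.prime_two.pow_dvd_iff_le_factorization (by decide +kernel)).1 (by decide +kernel)
    have h11 : NJ.factorization 11 ≤ 3 :=
      fact_le_of (by norm_num) (by decide +kernel) dvd_rfl (by decide +kernel)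
    have hw : wt NJ ≤ 512 := by
      unfold wt
      split_ifs <;> norm_num
    have h3 : 121 * 2 ^ 21 ≤ 128 * 11 ^ 3 * 512 :=
      (Nat.mul_le_mul_left _ (Nat.pow_le_pow_right (by norm_num) h2)).trans (hb.trans
        (Nat.mul_le_mul (Nat.mul_le_mul_left _ (Nat.pow_le_pow_right (by norm_num) h11)) hw))
    norm_num at h3
  · intro X hX hr hc
    apply hno
    -- `X = H`, trivial centre
    have h1 : Nat.card (X ⧸ center X) * Nat.card (center X) * X.index = Nat.card H := by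
      rw [← X.card_mul_index, ← (center X).index_mul_card]
      rfl
    rw [hc, hN, mul_assoc] at h1
    have h0 : 0 < NJ := by decide +kernel
    have h2 : Nat.card (center X) * X.index = 1 := Nat.eq_of_mul_eq_mul_left h0 (by rw [h1, mul_one])
    have hz1 : Nat.card (center X) = 1 := Nat.eq_one_of_mul_eq_one_right h2
    have hi1 : X.index = 1 := Nat.eq_one_of_mul_eq_one_left h2
    have hL : X = ⊤ := Subgroup.index_eq_one.1 hi1
    have hZ : center X = ⊥ := Subgroup.card_eq_one.1 hz1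
    have e1 : H ≃* X := (Subgroup.topEquiv.symm).trans (MulEquiv.subgroupCongr hL.symm)
    have e2 : X ≃* X ⧸ center X :=
      (QuotientGroup.quotientBot.symm).trans (QuotientGroup.quotientMulEquivOfEq hZ.symm)
    have hr' : Spor.IsoJ4 (X ⧸ center X) := hr
    exact Nonempty.intro (e1.trans e2) |>.elim fun e => by
      obtain ⟨f⟩ := hr'
      exact ⟨e.trans f⟩

end Cfsg.Agent.H417.JFourCaseF
end

-- part: H417/RecogJFour
section
/-!
# The Janko group `J₄` by its order and a degree (helper417)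
-/

set_option autoImplicit false

namespace Cfsg.Agent.H417.RecogJFour

open Subgroup Cfsg Cfsg.Agent.OrdDiv
open Cfsg.Agent.H424.DegTools
open Cfsg.Agent.H417.DegQuasi Cfsg.Agent.H417.QSTools Cfsg.Agent.H417.JFourCase Cfsg.Agent.H417.JFourCaseE
open Cfsg.Agent.H417.JFourCaseF

universe u

/-- the degrees which determine `J₄` -/
def Adm (d : ℕ) : Prop :=
  29 * 37 ∣ d ∨ 29 * 5 ∣ d ∨ 29 * 7 ∣ d ∨ 37 * (5 * 11 ^ 2) ∣ d ∨ 37 * 11 ^ 3 ∣ d ∨ 29 * (23 * (31 * 43)) ∣ d ∨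
    37 * (31 * 43) ∣ d ∨ d = 3781980160 ∨ d = 1981808640

variable {G : Type u} [Group G] [Finite G]

private noncomputable def _root_.Cfsg.Agent.KO17e88ed.k27 : type_of% @Nat.decEq := @(fun x0 x1 => @Bool.rec.{1} @(fun x2 => (@Eq.{1} _ (@Nat.beq @x0 @x1) @x2) → @Decidable (@Eq.{1} _ @x0 @x1)) @(fun x2 => @Decidable.isFalse _ (@Nat.ne_of_beq_eq_false _ _ @x2)) @(fun x2 => @Decidable.isTrue _ (@Nat.eq_of_beq_eq_true _ _ @x2)) (@Nat.beq @x0 @x1) (@Eq.refl.{1} _ (@Nat.beq @x0 @x1)))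
private theorem _root_.Cfsg.Agent.KO17e88ed.e27 : @Nat.decEq = @_root_.Cfsg.Agent.KO17e88ed.k27 := by delta _root_.Cfsg.Agent.KO17e88ed.k27; rfl'
private noncomputable def _root_.Cfsg.Agent.KO17e88ed.k28 : type_of% @Nat.decidable_dvd := @(fun x0 x1 => @Decidable.rec.{1} _ @(fun x2 => @Decidable (@Dvd.dvd.{0} _ _ @x0 @x1)) @(fun x2 => @Decidable.isFalse _ (@decidable_of_decidable_of_iff._proof_1 _ _ (@Nat.decidable_dvd._proof_1 @x0 @x1) @x2)) @(fun x2 => @Decidable.isTrue _ (@Iff.mp _ _ (@Nat.decidable_dvd._proof_1 @x0 @x1) @x2)) (@Cfsg.Agent.KO17e88ed.k27 (@Nat.mod @x1 @x0) (nat_lit 0)))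
private theorem _root_.Cfsg.Agent.KO17e88ed.e28 : @Nat.decidable_dvd = @_root_.Cfsg.Agent.KO17e88ed.k28 := by delta _root_.Cfsg.Agent.KO17e88ed.k28; rewrite [← Cfsg.Agent.KO17e88ed.e27]; rfl'

theorem qs29 (T : OrderTable.{u}) (hK : ∀ (K : Type u) [Group K] [Finite K] [IsSimpleGroup K],
    IsKnownSimple' K) (hN : Nat.card G = NJ) {d : ℕ} (hd : d ∈ charDegrees G) (h : 29 ∣ d) (hno : ¬ Spor.IsoJ4 G) :
    ∃ L : Subgroup G, QS G 29 L ∧ Real (.psl 2 29) (L ⧸ center L) ∧ Nat.card (L ⧸ center L) = 12180 := by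
  obtain ⟨L, hL, g, hg, hr, ho⟩ := exists_cand T hK (p := 29) lN hN
    valid_N (by decide +kernel) (by norm_num) (by decide +kernel) hd h
  have h1 : (cands lN NJ).filter (fun g => decide (29 ∣ ordN g)) = [.psl 2 29, .j4] := by (first | (refine of_decide_eq_true ?_; rewrite [Cfsg.Agent.KO17e88ed.e18, Cfsg.Agent.KO17e88ed.e24.{0}, Cfsg.Agent.KO17e88ed.e7.{0}, Cfsg.Agent.KO17e88ed.e28, Cfsg.Agent.KO17e88ed.e16, Cfsg.Agent.KO17e88ed.e14]; decide +kernel) | decide +kernel)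
  rw [h1, List.mem_cons, List.mem_singleton] at hg
  rcases hg with rfl | rfl
  · exact ⟨L, hL, hr, by rw [ho]; decide +kernel⟩
  · exfalso
    apply hno
    obtain ⟨e⟩ := hL.mulEquiv (by rw [ho, hN]; decide +kernel)
    have hr' : Spor.IsoJ4 (L ⧸ center L) := hr
    obtain ⟨e2⟩ := hr'
    exact ⟨e.trans e2⟩

theorem qs37 (T : OrderTable.{u}) (hK : ∀ (K : Type u) [Group K] [Finite K] [IsSimpleGroup K],
    IsKnownSimple' K) (hN : Nat.card G = NJ) {d : ℕ} (hd : d ∈ charDegrees G) (h : 37 ∣ d) (hno : ¬ Spor.IsoJ4 G) :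
    ∃ L : Subgroup G, QS G 37 L ∧ Real (.psu 3 11) (L ⧸ center L) ∧ Nat.card (L ⧸ center L) = 70915680 := by
  obtain ⟨L, hL, g, hg, hr, ho⟩ := exists_cand T hK (p := 37) lN hN
    valid_N (by decide +kernel) (by norm_num) (by decide +kernel) hd h
  have h1 : (cands lN NJ).filter (fun g => decide (37 ∣ ordN g)) = [.psu 3 11, .j4] := by (first | (refine of_decide_eq_true ?_; rewrite [Cfsg.Agent.KO17e88ed.e18, Cfsg.Agent.KO17e88ed.e24.{0}, Cfsg.Agent.KO17e88ed.e7.{0}, Cfsg.Agent.KO17e88ed.e28, Cfsg.Agent.KO17e88ed.e16, Cfsg.Agent.KO17e88ed.e14]; decide +kernel) | decide +kernel)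
  rw [h1, List.mem_cons, List.mem_singleton] at hg
  rcases hg with rfl | rfl
  · exact ⟨L, hL, hr, by rw [ho]; decide +kernel⟩
  · exfalso
    apply hno
    obtain ⟨e⟩ := hL.mulEquiv (by rw [ho, hN]; decide +kernel)
    have hr' : Spor.IsoJ4 (L ⧸ center L) := hr
    obtain ⟨e2⟩ := hr'
    exact ⟨e.trans e2⟩

theorem main (T : OrderTable.{u}) (hK : ∀ (K : Type u) [Group K] [Finite K] [IsSimpleGroup K],
    IsKnownSimple' K) (hN : Nat.card G = NJ) {d : ℕ} (hd : d ∈ charDegrees G) (h : Adm d) : Spor.IsoJ4 G := by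
  by_contra hno
  rcases h with h | h | h | h | h | h | h | rfl | rfl
  · obtain ⟨L, hL, hr, ho⟩ := qs29 T hK hN hd ((dvd_mul_right 29 37).trans h) hno
    obtain ⟨M, hM, -, ho'⟩ := qs37 T hK hN hd ((dvd_mul_left 37 29).trans h) hno
    exact case_A hN hL hr ho hM ho'
  · obtain ⟨L, hL, -, ho⟩ := qs29 T hK hN hd ((dvd_mul_right 29 5).trans h) hno
    exact QS.kill hL hN ho hd h (by decide +kernel) (by norm_num)
  · obtain ⟨L, hL, -, ho⟩ := qs29 T hK hN hd ((dvd_mul_right 29 7).trans h) hno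
    exact QS.kill hL hN ho hd h (by decide +kernel) (by norm_num)
  · obtain ⟨L, hL, -, ho⟩ := qs37 T hK hN hd ((dvd_mul_right 37 _).trans h) hno
    exact QS.kill hL hN ho hd h (by decide +kernel) (by norm_num)
  · obtain ⟨L, hL, -, ho⟩ := qs37 T hK hN hd ((dvd_mul_right 37 _).trans h) hno
    exact QS.kill hL hN ho hd h (by decide +kernel) (by norm_num)
  · obtain ⟨L, hL, hr, ho⟩ := qs29 T hK hN hd ((dvd_mul_right 29 _).trans h) hno
    exact case_C T hK hN hL hr ho hd ((dvd_mul_left _ 29).trans h)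
  · obtain ⟨L, hL, hr, ho⟩ := qs37 T hK hN hd ((dvd_mul_right 37 _).trans h) hno
    exact case_D T hK hN hL hr ho hd ((dvd_mul_left _ 37).trans h)
  · obtain ⟨L, hL, hr, ho⟩ := qs37 T hK hN hd (by norm_num) hno
    exact case_E T hK hN hL hr ho hd
  · exact hno (case_F T hK hN hd)

end Cfsg.Agent.H417.RecogJFour
end

private theorem dce_4aff5308b55d : _root_.True := by
  try have : _root_.True := by simp only [_root_.Cfsg.Agent.H417.Engine.bad.eq_1]
  exact _root_.True.intro
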